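import Cfsg.Agent.H238.E8.Tor
import Cfsg.Agent.H518.E83.Bridge
import Cfsg.Agent.H64.E83.Lang
import Mathlib

/-!
# The centraliser of `x₀ = φ₂(Mo)` in `E₈(3)` (helper238; S5925 box B)

`cent_x0` : `g x₀ = x₀ g → ∃ e i, g = φ₁(e) φ₂(Sg)^i`.
-/

set_option autoImplicit false
set_option linter.unusedSectionVars false
set_option maxRecDepth 100000

namespace Cfsg.Agent.H238.E8

open CoxeterSystem Matrix Cfsg Cfsg.Lie Cfsg.Lie.ChevalleyDatum
open Cfsg.Agent.ChevalleyStructure Cfsg.Agent.ChevalleyStructure.Elts Cfsg.Agent.ChevalleyStructure.CoxeterGeom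
  Cfsg.Agent.ChevalleyStructure.CoxeterGeomTypes
open Cfsg.Agent.Nodes.RGDChev
open Cfsg.Agent.KFacts.RgdChevCoord
open Cfsg.Agent.H129.TorusChar
open Cfsg.Agent.BpExc.FamUntw Cfsg.Agent.BpExc.FamInst Cfsg.Agent.BpExc.FamField
open Cfsg.Agent.H942.E8Tab Cfsg.Agent.H942.CB
open Cfsg.Agent.H540.E8C (KK)
open Cfsg.Agent.H992.E8X (X hE8)
open Cfsg.Agent.GpExc.Field (emb emb_injective)
open Cfsg.Agent.H64.E83 (IsDg lang_diag)
open Cfsg.Agent.H908.E8L (Mo Sg sg_pow11)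

/-- the field embedding -/
noncomputable abbrev f3 : ZMod 3 →+* KK := algebraMap (ZMod 3) KK

theorem dg_of_isDg {k : Type} [Field k] {e : SpecialLinearGroup (Fin 5) k} (he : IsDg e) :
    ∃ (d : Fin 5 → kˣ) (h : ∏ i, d i = 1), e = dg d h := by
  have h1 := he.eq_diagonal
  have h2 : (e : Matrix (Fin 5) (Fin 5) k).det = 1 := e.2
  rw [h1, Matrix.det_diagonal] at h2
  have h3 : ∀ i, (e : Matrix (Fin 5) (Fin 5) k) i i ≠ 0 := by
    intro i h0
    rw [Finset.prod_eq_zero (f := fun i => (e : Matrix (Fin 5) (Fin 5) k) i i) (Finset.mem_univ i) h0] at h2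
    exact zero_ne_one h2
  refine ⟨fun i => Units.mk0 _ (h3 i), ?_, ?_⟩
  · apply Units.ext
    rw [Units.coe_prod, Units.val_one]
    exact h2
  · apply Subtype.ext
    exact h1

theorem dg_map {k k' : Type} [Field k] [Field k'] (f : k →+* k') {d : Fin 5 → kˣ} {d' : Fin 5 → k'ˣ}
    (h : ∏ i, d i = 1) (h' : ∏ i, d' i = 1) (hh : ∀ i, f (d i : k) = (d' i : k')) :
    SpecialLinearGroup.map f (dg d h) = dg d' h' := by
  apply Subtype.ext
  ext i j
  show f (Matrix.diagonal (fun i => (d i : k)) i j) = Matrix.diagonal (fun i => (d' i : k')) i j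
  by_cases hij : i = j
  · subst hij
    rw [Matrix.diagonal_apply_eq, Matrix.diagonal_apply_eq, hh]
  · rw [Matrix.diagonal_apply_ne _ hij, Matrix.diagonal_apply_ne _ hij, map_zero]

theorem map_frob_f3 (A : SpecialLinearGroup (Fin 5) (ZMod 3)) :
    SpecialLinearGroup.map (frobenius KK 3) (SpecialLinearGroup.map f3 A) = SpecialLinearGroup.map f3 A := by
  apply Subtype.ext
  ext i j
  show frobenius KK 3 (f3 (A i j)) = f3 (A i j)
  rw [frobenius_def, ← map_pow, ZMod.pow_card]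

theorem sg_ph1 (A : SpecialLinearGroup (Fin 5) KK) : sg (ph1 KK A) = ph1 KK (SpecialLinearGroup.map (frobenius KK 3) A) := by
  rw [phi_ph1]
  congr 1

theorem sg_ph2 (A : SpecialLinearGroup (Fin 5) KK) : sg (ph2 KK A) = ph2 KK (SpecialLinearGroup.map (frobenius KK 3) A) := by
  rw [phi_ph2]
  congr 1

theorem sg_emb (g : ↥(chevE8.group (ZMod 3))) : sg (emb hE8 f3 g) = emb hE8 f3 g :=
  Cfsg.Agent.H378.TorFin.phi_emb' e8T f3 3 (n := 1) (by rw [Nat.card_eq_fintype_card, ZMod.card]; rfl) g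

/-- monomial conjugation preserves the torus -/
theorem mono_TT {M : SpecialLinearGroup (Fin 5) KK} (hM : ∀ i j, i ≠ j + 1 → M i j = 0)
    {s : ↥(chevE8.group KK)} (hs : s ∈ TT chevE8 KK) : ph2 KK M * s * (ph2 KK M)⁻¹ ∈ TT chevE8 KK := by
  obtain ⟨dl, h1, h2⟩ := Cfsg.Agent.H988.E8.tor_ph2 (inv_mem hs)
  obtain ⟨u, hud⟩ : ∃ u : Fin 5 → KKˣ, ∀ j, u j = dl j / dl (j - 1) := ⟨fun j => dl j / dl (j - 1), fun _ => rfl⟩
  have hu : ∏ i, u i = 1 := by
    rw [Fin.prod_univ_five, hud, hud, hud, hud, hud]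
    have := cyc5 (dl 4) (dl 0) (dl 1) (dl 2) (dl 3)
    exact this
  have h3 : s⁻¹ * ph2 KK M * s = ph2 KK (dg u hu * M) := by
    have := h2 M (dg u hu * M) fun i j => ?_
    · rwa [inv_inv] at this
    show ((Matrix.diagonal fun i => ((u i : KKˣ) : KK)) * M.1) i j = _
    rw [Matrix.diagonal_mul]
    by_cases hij : i = j + 1
    · subst hij
      rw [hud, add_sub_cancel_right, Units.val_div_eq_div_val, div_eq_mul_inv]
      show _ * M (j + 1) j = _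
      ring
    · show _ * M i j = _
      rw [hM i j hij, mul_zero, mul_zero, zero_mul]
  have h4 : ph2 KK M * s * (ph2 KK M)⁻¹ = s * ph2 KK (dg u hu) := by
    have e1 : ph2 KK M * s = s * (s⁻¹ * ph2 KK M * s) := by group
    rw [e1, h3, map_mul]
    group
  rw [h4]
  exact mul_mem hs (ph2_dg u hu).1

/-- **The centraliser of `x₀`.** -/
theorem cent_x0 (hinj : Function.Injective (ph1 KK)) {g : ↥(chevE8.group (ZMod 3))}
    (hg : g * ph2 (ZMod 3) Mo = ph2 (ZMod 3) Mo * g) :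
    ∃ (e : SpecialLinearGroup (Fin 5) (ZMod 3)) (i : ℕ), g = ph1 (ZMod 3) e * ph2 (ZMod 3) Sg ^ i := by
  obtain ⟨Z, ζ0, cM, hζ0, hD, -, hM0⟩ := Cfsg.Agent.H518.E83.singer' (k := KK) f3
  have hz0 : ζ0 ≠ 0 := hζ0.ne_zero (by norm_num)
  obtain ⟨ζ, hζv⟩ : ∃ ζ : KKˣ, (ζ : KK) = ζ0 := ⟨Units.mk0 ζ0 hz0, rfl⟩
  have hζp : IsPrimitiveRoot ζ 121 := by rw [← IsPrimitiveRoot.coe_units_iff, hζv]; exact hζ0
  have hζ : orderOf ζ = 121 := hζp.eq_orderOf.symm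
  have hζ1 : ζ ^ 121 = 1 := hζp.pow_eq_one
  have hp : ∏ i, d3 ζ i = 1 := prod_d3 hζ1
  have hDg : Z⁻¹ * SpecialLinearGroup.map f3 Sg * Z = dg (d3 ζ) hp := by
    apply Subtype.ext
    rw [hD]
    show _ = Matrix.diagonal _
    congr 1
    funext i
    unfold d3
    rw [Units.val_pow_eq_pow_val, hζv]
  obtain ⟨M, hMd⟩ : ∃ M : SpecialLinearGroup (Fin 5) KK, M = Z⁻¹ * SpecialLinearGroup.map (frobenius KK 3) Z := ⟨_, rfl⟩
  have hM : ∀ i j, i ≠ j + 1 → M i j = 0 := by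
    intro i j hij
    show M.1 i j = 0
    rw [hMd, hM0, Matrix.of_apply, if_neg hij]
  -- the element `η`
  obtain ⟨η, hηd⟩ : ∃ η : KKˣ, η = ζ ^ 11 := ⟨_, rfl⟩
  have hη : orderOf η = 11 := by
    rw [hηd, orderOf_pow' ζ (by norm_num), hζ]
    rfl
  have hη1 : η ^ 121 = 1 := by rw [hηd, ← pow_mul, mul_comm, pow_mul, hζ1, one_pow]
  have hpη : ∏ i, d3 η i = 1 := prod_d3 hη1
  have hD11 : dg (d3 ζ) hp ^ 11 = dg (d3 η) hpη := by
    rw [dg_pow]
    congr 1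
    funext i
    unfold d3
    rw [hηd, ← pow_mul, ← pow_mul, mul_comm]
  obtain ⟨z, hz⟩ : ∃ z, z = ph2 KK Z := ⟨_, rfl⟩
  obtain ⟨G, hG⟩ : ∃ G, G = emb hE8 f3 g := ⟨_, rfl⟩
  -- `z⁻¹ x₀ z = t`
  have hx0 : emb hE8 f3 (ph2 (ZMod 3) Mo) = z * ph2 KK (dg (d3 η) hpη) * z⁻¹ := by
    rw [← sg_pow11, map_pow, map_pow, emb_ph2, ← hD11, ← hDg, map_pow, map_mul, map_mul, map_inv, ← hz, ← conj_pow]
    congr 1
    group
  have hgt : G * (z * ph2 KK (dg (d3 η) hpη) * z⁻¹) = z * ph2 KK (dg (d3 η) hpη) * z⁻¹ * G := by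
    rw [← hx0, hG, ← map_mul, ← map_mul, hg]
  obtain ⟨c, hc⟩ : ∃ c, c = z⁻¹ * G * z := ⟨_, rfl⟩
  have hct : c * ph2 KK (dg (d3 η) hpη) = ph2 KK (dg (d3 η) hpη) * c := by
    rw [hc]
    have this : z⁻¹ * (G * (z * ph2 KK (dg (d3 η) hpη) * z⁻¹)) * z =
        z⁻¹ * (z * ph2 KK (dg (d3 η) hpη) * z⁻¹ * G) * z := by rw [hgt]
    calc z⁻¹ * G * z * ph2 KK (dg (d3 η) hpη) = z⁻¹ * (G * (z * ph2 KK (dg (d3 η) hpη) * z⁻¹)) * z := by group
      _ = z⁻¹ * (z * ph2 KK (dg (d3 η) hpη) * z⁻¹ * G) * z := this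
      _ = _ := by group
  -- the twisted Frobenius map
  obtain ⟨n1, hn1⟩ : ∃ n1, n1 = ph2 KK M := ⟨_, rfl⟩
  have hn1z : sg z = z * n1 := by
    rw [hz, sg_ph2, hn1, hMd, ← map_mul]
    congr 1
    group
  have hcf : n1 * sg c * n1⁻¹ = c := by
    have e1 : sg c = (sg z)⁻¹ * G * sg z := by
      rw [hc, map_mul, map_mul, map_inv, hG, sg_emb]
    rw [e1, hn1z, hc]
    group
  have hcomm1 : ∀ A, n1 * ph1 KK A = ph1 KK A * n1 := fun A => by rw [hn1]; exact ((ph_comm KK A M).eq).symm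
  obtain ⟨A, s, hs, hcA⟩ := cent_t hη hpη hct
  have hsgs : sg s ∈ TT chevE8 KK := sg_TT hs
  -- step: `A` modulo the diagonal is rational
  have step : ∀ (A : SpecialLinearGroup (Fin 5) KK) (s : ↥(chevE8.group KK)), c = ph1 KK A * s →
      ph1 KK (SpecialLinearGroup.map (frobenius KK 3) A) * (n1 * sg s * n1⁻¹) = ph1 KK A * s := by
    intro A s h
    have e1 := hcf
    rw [h, map_mul, sg_ph1] at e1
    rw [← e1]
    calc ph1 KK (SpecialLinearGroup.map (frobenius KK 3) A) * (n1 * sg s * n1⁻¹)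
        = (ph1 KK (SpecialLinearGroup.map (frobenius KK 3) A) * n1) * sg s * n1⁻¹ := by group
      _ = (n1 * ph1 KK (SpecialLinearGroup.map (frobenius KK 3) A)) * sg s * n1⁻¹ := by rw [hcomm1]
      _ = _ := by group
  have hst := step A s hcA
  have hs1 : n1 * sg s * n1⁻¹ ∈ TT chevE8 KK := by rw [hn1]; exact mono_TT hM hsgs
  have hd : IsDg (A⁻¹ * SpecialLinearGroup.map (frobenius KK 3) A) := by
    apply Cfsg.Agent.H988.E8.dg_of_mem hinj
    have e1 : ph1 KK (A⁻¹ * SpecialLinearGroup.map (frobenius KK 3) A) = s * (n1 * sg s * n1⁻¹)⁻¹ := by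
      rw [map_mul, map_inv, eq_mul_inv_iff_mul_eq, mul_assoc, hst]
      group
    rw [e1]
    exact mul_mem hs (inv_mem hs1)
  obtain ⟨A', e, he, hAe⟩ := lang_diag f3 hd (A := A) (by group)
  obtain ⟨de, hde, rfl⟩ := dg_of_isDg he
  obtain ⟨s2, hs2⟩ : ∃ s2, s2 = ph1 KK (dg de hde) * s := ⟨_, rfl⟩
  have hs2T : s2 ∈ TT chevE8 KK := by rw [hs2]; exact mul_mem (ph1_dg de hde).1 hs
  have hcA' : c = ph1 KK (SpecialLinearGroup.map f3 A') * s2 := by
    rw [hcA, hAe, hs2, map_mul, mul_assoc]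
  have hst2 := step _ s2 hcA'
  rw [map_frob_f3] at hst2
  have hfix : ph2 KK M * sg s2 * (ph2 KK M)⁻¹ = s2 := by
    rw [← hn1]; exact mul_left_cancel hst2
  obtain ⟨ep, hep, n, hpm, hs2e⟩ := fix_tor hζ hp hM hs2T hfix
  -- the signs are rational
  obtain ⟨e', he'⟩ : ∃ e' : Fin 5 → (ZMod 3)ˣ, ∀ i, f3 (e' i : ZMod 3) = (ep i : KK) := by
    have : ∀ i, ∃ x : (ZMod 3)ˣ, f3 (x : ZMod 3) = (ep i : KK) := by
      intro i
      rcases hpm i with h | h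
      · exact ⟨1, by rw [h, Units.val_one, map_one, Units.val_one]⟩
      · exact ⟨-1, by rw [h, Units.val_neg, Units.val_one, map_neg, map_one, Units.val_neg, Units.val_one]⟩
    choose e' he' using this
    exact ⟨e', he'⟩
  have hprod' : ∏ i, e' i = 1 := by
    apply Units.ext
    apply f3.injective
    rw [Units.coe_prod, map_prod, Units.val_one, map_one]
    simp only [he']
    rw [← Units.coe_prod, hep, Units.val_one]
  have hdge : dg ep hep = SpecialLinearGroup.map f3 (dg e' hprod') := (dg_map f3 _ _ he').symm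
  have hGc : G = z * c * z⁻¹ := by rw [hc]; group
  have hDn0 : Z * dg (d3 ζ) hp ^ n * Z⁻¹ = SpecialLinearGroup.map f3 Sg ^ n := by
    have e1 : dg (d3 ζ) hp = Z⁻¹ * SpecialLinearGroup.map f3 Sg * Z⁻¹⁻¹ := by rw [← hDg, inv_inv]
    rw [e1, conj_pow]
    group
  have hDn : z * ph2 KK (dg (d3 ζ) hp ^ n) * z⁻¹ = ph2 KK (SpecialLinearGroup.map f3 Sg) ^ n := by
    rw [hz, ← map_inv, ← map_mul, ← map_mul, hDn0, map_pow]
  have hz1 : ∀ B, z * ph1 KK B = ph1 KK B * z := fun B => by rw [hz]; exact ((ph_comm KK B Z).eq).symm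
  have hfin : G = ph1 KK (SpecialLinearGroup.map f3 A') * ph1 KK (dg ep hep) * ph2 KK (SpecialLinearGroup.map f3 Sg) ^ n := by
   rw [hGc, hcA', hs2e]
   calc z * (ph1 KK (SpecialLinearGroup.map f3 A') * (ph1 KK (dg ep hep) * ph2 KK (dg (d3 ζ) hp ^ n))) * z⁻¹
      = (z * ph1 KK (SpecialLinearGroup.map f3 A')) * ph1 KK (dg ep hep) * ph2 KK (dg (d3 ζ) hp ^ n) * z⁻¹ := by group
    _ = ph1 KK (SpecialLinearGroup.map f3 A') * (z * ph1 KK (dg ep hep)) * ph2 KK (dg (d3 ζ) hp ^ n) * z⁻¹ := by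
        rw [hz1]; group
    _ = ph1 KK (SpecialLinearGroup.map f3 A') * ph1 KK (dg ep hep) * (z * ph2 KK (dg (d3 ζ) hp ^ n) * z⁻¹) := by
        rw [hz1]; group
    _ = _ := by rw [hDn]
  have hfin2 : emb hE8 f3 (ph1 (ZMod 3) (A' * dg e' hprod') * ph2 (ZMod 3) Sg ^ n) =
      ph1 KK (SpecialLinearGroup.map f3 A') * ph1 KK (dg ep hep) * ph2 KK (SpecialLinearGroup.map f3 Sg) ^ n := by
    rw [map_mul, map_pow, emb_ph1, emb_ph2, map_mul, map_mul, ← hdge]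
  exact ⟨A' * dg e' hprod', n, emb_injective hE8 f3 (by rw [← hG, hfin, hfin2])⟩

end Cfsg.Agent.H238.E8
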