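import Cfsg.Agent.H238.E8.Wt
import Cfsg.Agent.H540.E8C.Centre
import Mathlib

/-!
# The centraliser in `E₈(k)` of the diagonal form of `x₀` (helper238)
-/

set_option autoImplicit false
set_option linter.unusedSectionVars false
set_option maxRecDepth 100000

namespace Cfsg.Agent.H238.E8

open CoxeterSystem Matrix Cfsg Cfsg.Lie Cfsg.Lie.ChevalleyDatum
open Cfsg.Agent.ChevalleyStructure Cfsg.Agent.ChevalleyStructure.Elts Cfsg.Agent.ChevalleyStructure.CoxeterGeom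
  Cfsg.Agent.ChevalleyStructure.CoxeterGeomTypes Cfsg.Agent.ChevalleyStructure.NPerm
  Cfsg.Agent.ChevalleyStructure.RootVec Cfsg.Agent.ChevalleyStructure.RootVecTab
open Cfsg.Agent.Tits.Roots Cfsg.Agent.Tits.Core Cfsg.Agent.Nodes Cfsg.Agent.Nodes.Reps Cfsg.Agent.Nodes.BNOf
  Cfsg.Agent.Nodes.RGDChev Cfsg.Agent.Nodes.Bruhat Cfsg.Agent.Nodes.SubComb Cfsg.Agent.Nodes.Coroot
  Cfsg.Agent.Nodes.NormalForm
open Cfsg.Agent.KFacts.RgdField Cfsg.Agent.KFacts.RgdChevCoord Cfsg.Agent.BpExc.TorCent Cfsg.Agent.BpExc.TorChev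
open Cfsg.Agent.GpExc.Field Cfsg.Agent.BpExc.Tow Cfsg.Agent.BpExc.TowChev Cfsg.Agent.BpExc.Fr
  Cfsg.Agent.BpExc.LangFr Cfsg.Agent.LangThm Cfsg.Agent.BpExc Cfsg.Agent.H129.TorusChar Cfsg.Agent.H129.TorusMain
open Cfsg.Agent.H720.TorusReal Cfsg.Agent.Nodes.Unique Cfsg.Agent.H897.T5Cent
open Cfsg.Agent.BpExc.FamUntw Cfsg.Agent.BpExc.FamInst Cfsg.Agent.BpExc.FamField
open Cfsg.Agent.H942.E8Tab Cfsg.Agent.H942.E8Alc Cfsg.Agent.H942.CB
open Cfsg.Agent.H944.Tab Cfsg.Agent.H944.Kac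
open Cfsg.Agent.H540.E8C (KK)
open Cfsg.Agent.ChevalleyStructure.HMatDiagAll (expo)
open Cfsg.Agent.H992.E8X (X hE8)

instance kkch : CharP KK 3 := charP_of_injective_algebraMap (algebraMap (ZMod 3) KK).injective 3

theorem lf : LocFin KK := locFin_of_isAlgebraic 3 KK

theorem X_eq_xc {s : ℕ} (hs : s < 240) (a : KK) : X s a = xc e8T (vec chevE8 8 s) a :=
  Subtype.ext (coe_xc e8T hs a).symm

theorem mem_XX {s : ℕ} (hs : s < chevE8.nroots) {g : ↥(chevE8.group KK)} :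
    g ∈ XX chevE8 8 KK (vec chevE8 8 s) ↔ ∃ a, xc e8T (vec chevE8 8 s) a = g :=
  ((coordsL (k := KK) e8T cs8 lf 3).coord _ ((isRoot_iff e8T cs8 _).2 ⟨s, hs, rfl⟩)).mem g

section
variable {k : Type} [Field k]

theorem dg_mul (d e : Fin 5 → kˣ) (h : ∏ i, d i = 1) (h' : ∏ i, e i = 1) :
    dg d h * dg e h' = dg (fun i => d i * e i) (by rw [Finset.prod_mul_distrib, h, h', one_mul]) := by
  apply Cfsg.Agent.LieClassical.SLGen.smul_ext
  intro v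
  funext i
  rw [mul_smul, dg_smul, dg_smul, dg_smul, Units.val_mul, mul_assoc]

theorem dg_eq_one {d : Fin 5 → kˣ} {h : ∏ i, d i = 1} (h1 : ∀ i, d i = 1) : dg d h = 1 := by
  apply Cfsg.Agent.LieClassical.SLGen.smul_ext
  intro v
  funext i
  rw [one_smul, dg_smul, h1, Units.val_one, one_mul]

theorem dg_pow (d : Fin 5 → kˣ) (h : ∏ i, d i = 1) (n : ℕ) :
    dg d h ^ n = dg (fun i => d i ^ n) (by rw [Finset.prod_pow, h, one_pow]) := by
  induction n with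
  | zero => rw [pow_zero, dg_eq_one fun i => pow_zero _]
  | succ n ih =>
    rw [pow_succ, ih, dg_mul]
    congr 1
    funext i
    rw [pow_succ]

end

/-- the exponent of `η` -/
def ex (s : ℕ) : ℤ := expo chevE8 (rt2 0 1) s + 4 * expo chevE8 (rt2 1 2) s + 13 * expo chevE8 (rt2 2 3) s +
  40 * expo chevE8 (rt2 3 4) s

theorem tab11 : ∀ s : Fin 240, (11 : ℤ) ∣ ex s.val → ∃ i j, i ≠ j ∧ s.val = rt1 i j := by decide +kernel

/-- the powers `η^(3^i)` -/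
noncomputable def d3 (η : KKˣ) : Fin 5 → KKˣ := fun i => η ^ 3 ^ (i : ℕ)

theorem prod_d3 {η : KKˣ} (h : η ^ 121 = 1) : ∏ i, d3 η i = 1 := by
  rw [Fin.prod_univ_five]
  unfold d3
  rw [← pow_add, ← pow_add, ← pow_add, ← pow_add]
  exact h

theorem wv_d3 (η : KKˣ) (s : ℕ) : wv rt2 (d3 η) s = η ^ ex s := by
  unfold wv ex pp d3
  simp only [Matrix.cons_val_zero, Matrix.cons_val_one, Matrix.cons_val]
  have e : ∀ (n : ℕ) (m : ℤ), (η ^ n) ^ m = η ^ ((n : ℤ) * m) := fun n m => by rw [_root_.zpow_mul, zpow_natCast]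
  rw [show η ^ 3 ^ ((0 : Fin 5) : ℕ) * η ^ 3 ^ ((1 : Fin 5) : ℕ) = η ^ 4 by rw [← pow_add]; rfl,
    show η ^ 4 * η ^ 3 ^ ((2 : Fin 5) : ℕ) = η ^ 13 by rw [← pow_add]; rfl,
    show η ^ 13 * η ^ 3 ^ ((3 : Fin 5) : ℕ) = η ^ 40 by rw [← pow_add]; rfl,
    show η ^ 3 ^ ((0 : Fin 5) : ℕ) = η ^ 1 from rfl, e, e, e, e, ← _root_.zpow_add, ← _root_.zpow_add, ← _root_.zpow_add]
  congr 1
  push_cast
  ring

theorem con11 : Con e8T cs8 lf 3 11 :=
  con_of_frm' (p := 3) e8T cs8 lf frm8 invC_E8 (N := 11) (Nat.coprime_one_left 11) (by norm_num) (by norm_num)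

theorem XX_le_range {i j : Fin 5} (hij : i ≠ j) : XX chevE8 8 KK (vec chevE8 8 (rt1 i j)) ≤ (ph1 KK).range := by
  intro g hg
  obtain ⟨a, rfl⟩ := (mem_XX (rt1_lt i j)).1 hg
  refine ⟨SpecialLinearGroup.transvection hij ((sg1 i j : KK) * a), ?_⟩
  rw [ph1_tv, ← X_eq_xc (rt1_lt i j)]
  congr 1
  have h1 : ((sg1 i j : ℤ) : KK) * (sg1 i j : KK) = 1 := by rw [← Int.cast_mul, td1, Int.cast_one]
  rw [← mul_assoc, h1, one_mul]

/-- **The centraliser of `t = φ₂(diag(η, η³, …))`, `η` of order 11.** -/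
theorem cent_t {η : KKˣ} (hη : orderOf η = 11) (h1 : ∏ i, d3 η i = 1) {c : ↥(chevE8.group KK)}
    (hc : c * ph2 KK (dg (d3 η) h1) = ph2 KK (dg (d3 η) h1) * c) :
    ∃ A : SpecialLinearGroup (Fin 5) KK, ∃ s ∈ TT chevE8 KK, c = ph1 KK A * s := by
  obtain ⟨htT, hX⟩ := ph2_dg (d3 η) h1
  have h11 : η ^ 11 = 1 := by rw [← hη]; exact pow_orderOf_eq_one η
  have ht : (ph2 KK (dg (d3 η) h1)) ^ 11 = 1 := by
    rw [← map_pow]
    rw [dg_pow, dg_eq_one fun i => ?_, map_one]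
    unfold d3
    rw [← pow_mul, mul_comm, pow_mul, h11, one_pow]
  obtain ⟨m, hm, s, hs, rfl⟩ := cent_form e8T cs8 lf 3 con11 htT ht hc
  have h2 : Cfsg.Agent.H795.SetCent.MMZ cs8 e8T.isCartan (XX chevE8 8 KK) (ch e8T) {ph2 KK (dg (d3 η) h1)} ≤
      (ph1 KK).range := by
    refine RGD.Sup_le fun a ha => ?_
    obtain ⟨r, hr, rfl⟩ := (isRoot_iff e8T cs8 a).1 ha.1
    have h3 := ha.2 _ rfl
    rw [← cX_vec e8T htT hr, hX ⟨r, hr⟩, wv_d3] at h3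
    have h4 : η ^ ex r = 1 := Units.ext h3
    have h5 : (11 : ℤ) ∣ ex r := by
      have := orderOf_dvd_iff_zpow_eq_one.2 h4
      rwa [hη] at this
    obtain ⟨i, j, hij, h6⟩ := tab11 ⟨r, hr⟩ h5
    have h7 : r = rt1 i j := h6
    rw [h7]
    exact XX_le_range hij
  obtain ⟨A, hA⟩ := h2 hm
  exact ⟨A, s, hs, by rw [hA]⟩

end Cfsg.Agent.H238.E8
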