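import Cfsg.Agent.H238.E8.Cent
import Cfsg.Agent.H239.E8P.Act
import Mathlib

/-!
# The centraliser in `E₈(k)` of the element of order 5 with centraliser `A₄A₄` (helper238; S5925 box F, piece B2)
-/

set_option autoImplicit false
set_option linter.unusedSectionVars false
set_option maxRecDepth 100000

namespace Cfsg.Agent.H238.E8

open CoxeterSystem Matrix Cfsg Cfsg.Lie Cfsg.Lie.ChevalleyDatum
open Cfsg.Agent.ChevalleyStructure Cfsg.Agent.ChevalleyStructure.Elts Cfsg.Agent.ChevalleyStructure.CoxeterGeom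
  Cfsg.Agent.ChevalleyStructure.CoxeterGeomTypes Cfsg.Agent.ChevalleyStructure.NPerm
  Cfsg.Agent.ChevalleyStructure.RootVec Cfsg.Agent.ChevalleyStructure.RootVecTab
open Cfsg.Agent.Tits.Roots Cfsg.Agent.Tits.Core Cfsg.Agent.Nodes Cfsg.Agent.Nodes.Reps Cfsg.Agent.Nodes.BNOf
  Cfsg.Agent.Nodes.RGDChev Cfsg.Agent.Nodes.Bruhat Cfsg.Agent.Nodes.SubComb Cfsg.Agent.Nodes.Coroot
  Cfsg.Agent.Nodes.NormalForm
open Cfsg.Agent.KFacts.RgdField Cfsg.Agent.KFacts.RgdChevCoord Cfsg.Agent.BpExc.TorCent Cfsg.Agent.BpExc.TorChev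
open Cfsg.Agent.GpExc.Field Cfsg.Agent.BpExc.Tow Cfsg.Agent.BpExc.TowChev Cfsg.Agent.BpExc.Fr
  Cfsg.Agent.BpExc.LangFr Cfsg.Agent.LangThm Cfsg.Agent.BpExc Cfsg.Agent.H129.TorusChar Cfsg.Agent.H129.TorusMain
open Cfsg.Agent.H720.TorusReal Cfsg.Agent.Nodes.Unique Cfsg.Agent.H897.T5Cent
open Cfsg.Agent.BpExc.FamUntw Cfsg.Agent.BpExc.FamInst Cfsg.Agent.BpExc.FamField
open Cfsg.Agent.H942.E8Tab Cfsg.Agent.H942.E8Alc Cfsg.Agent.H942.CB
open Cfsg.Agent.H944.Tab Cfsg.Agent.H944.Kac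
open Cfsg.Agent.H540.E8C (KK)
open Cfsg.Agent.H992.E8X (X hE8)
open Cfsg.Agent.H239.E8P (mv RT RT_lt mem_of_mv)

theorem con5 : Con e8T cs8 lf 3 5 :=
  con_of_frm' (p := 3) e8T cs8 lf frm8 invC_E8 (N := 5) (Nat.coprime_one_left 5) (by norm_num) (by norm_num)

theorem zpow_eq_one_of {w : KK} (hw : w ^ 5 = 1) (hw1 : w ≠ 1) {m : ℤ} (h : w ^ m = 1) : m % 5 = 0 := by
  have h5 : orderOf w = 5 := by
    have : Fact (Nat.Prime 5) := ⟨by norm_num⟩
    exact orderOf_eq_prime hw hw1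
  have hp : IsPrimitiveRoot w 5 := by rw [← h5]; exact IsPrimitiveRoot.orderOf w
  exact Int.emod_eq_zero_of_dvd (by exact_mod_cast (hp.zpow_eq_one_iff_dvd m).1 h)

/-- **Piece B2.** -/
theorem B2 {w : KK} (hw : w ^ 5 = 1) (hw1 : w ≠ 1) {h c : GL chevE8.Idx KK} (hh : h ∈ chevE8.diagonalSubgroup KK)
    (hm : (h : Matrix chevE8.Idx chevE8.Idx KK) =
      Matrix.diagonal (Sum.elim (fun _ => (1 : KK)) (fun s : Fin chevE8.nroots => w ^ mv s.val)))
    (hc : c ∈ chevE8.group KK) (hch : c * h = h * c) :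
    ∃ m ∈ Subgroup.closure {x : GL chevE8.Idx KK | ∃ (c : Fin 2) (i j : Fin 5) (t : KK), i ≠ j ∧
        x = xG Cfsg.Agent.H239.E8P.hE (RT c i j) t},
      ∃ s ∈ chevE8.diagonalSubgroup KK, c = m * s := by
  have hw0 : w ≠ 0 := by
    rintro rfl
    exact zero_ne_one ((zero_pow (by norm_num)).symm.trans hw)
  have hle : chevE8.diagonalSubgroup KK ≤ chevE8.group KK := by
    refine (Subgroup.closure_le _).2 ?_
    rintro g ⟨r, t, hr, ht, hg⟩
    have h1 : g = hG hE8 r t := Units.ext (hg.trans (coe_hG hE8 r t).symm)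
    rw [h1]
    exact hG_mem_group hE8 r t
  obtain ⟨h', rfl⟩ : ∃ h' : ↥(chevE8.group KK), (h' : GL chevE8.Idx KK) = h := ⟨⟨h, hle hh⟩, rfl⟩
  obtain ⟨c', rfl⟩ : ∃ c' : ↥(chevE8.group KK), (c' : GL chevE8.Idx KK) = c := ⟨⟨c, hc⟩, rfl⟩
  have hT : h' ∈ TT chevE8 KK := Subgroup.mem_subgroupOf.2 hh
  have h5 : h' ^ 5 = 1 := by
    apply Subtype.ext
    rw [Subgroup.coe_pow, Subgroup.coe_one]
    apply Units.ext
    rw [Units.val_pow_eq_pow_val, hm, Matrix.diagonal_pow, Units.val_one, ← Matrix.diagonal_one]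
    congr 1
    funext i
    rcases i with i | s
    · rw [Pi.pow_apply, Sum.elim_inl, one_pow]
    · rw [Pi.pow_apply, Sum.elim_inr, ← zpow_natCast, ← _root_.zpow_mul, _root_.mul_comm, _root_.zpow_mul,
        zpow_natCast, hw, _root_.one_zpow]
  have hcm : c' * h' = h' * c' := Subtype.ext hch
  have hX : ∀ s : Fin chevE8.nroots, cX e8T h' (vec chevE8 8 s) = w ^ mv s.val := by
    intro s
    have h1 := TT_diag' e8T hT
    rw [hm] at h1
    have h3 := congrFun (congrFun h1 (Sum.inr s)) (Sum.inr s)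
    rw [Matrix.diagonal_apply_eq, Matrix.diagonal_apply_eq] at h3
    exact h3.symm
  obtain ⟨m, hm', s, hs, rfl⟩ := cent_form e8T cs8 lf 3 con5 hT h5 hcm
  set CL := Subgroup.closure {x : GL chevE8.Idx KK | ∃ (c : Fin 2) (i j : Fin 5) (t : KK), i ≠ j ∧
        x = xG Cfsg.Agent.H239.E8P.hE (RT c i j) t} with hCL
  have h2 : Cfsg.Agent.H795.SetCent.MMZ cs8 e8T.isCartan (XX chevE8 8 KK) (ch e8T) {h'} ≤
      CL.subgroupOf (chevE8.group KK) := by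
    refine RGD.Sup_le fun a ha => ?_
    obtain ⟨r, hr, rfl⟩ := (isRoot_iff e8T cs8 a).1 ha.1
    have h3 := ha.2 _ rfl
    rw [← cX_vec e8T hT hr, hX ⟨r, hr⟩] at h3
    obtain ⟨c, i, j, hij, h6⟩ := mem_of_mv r hr (zpow_eq_one_of hw hw1 h3)
    intro g hg
    obtain ⟨a, rfl⟩ := (mem_XX hr).1 hg
    rw [Subgroup.mem_subgroupOf, coe_xc e8T hr]
    exact Subgroup.subset_closure ⟨c, i, j, a, hij, by rw [← h6]⟩
  exact ⟨m, Subgroup.mem_subgroupOf.1 (h2 hm'), s, Subgroup.mem_subgroupOf.1 hs, rfl⟩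

end Cfsg.Agent.H238.E8
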