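import Cfsg.Agent.H238.E8.B
import Mathlib

/-!
# Injectivity of `φ₁` over the algebraic closure (helper238)
-/

set_option autoImplicit false
set_option linter.unusedSectionVars false
set_option maxRecDepth 100000

namespace Cfsg.Agent.H238.E8

open Matrix Cfsg Cfsg.Lie
open Cfsg.Agent.ChevalleyStructure.HMatDiagAll (expo)
open Cfsg.Agent.H540.E8C (KK)
open Cfsg.Agent.H992.E8X (X hE8 X_eq_one)
open Cfsg.Agent.H129.TorusChar Cfsg.Agent.KFacts.RgdChevCoord Cfsg.Agent.Nodes.RGDChev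
open Cfsg.Agent.H942.E8Tab
open Cfsg.Agent.H64.E83 (IsDg)

theorem ker_central {F : Type} [Field F] {G : Type} [Group G] (π : SpecialLinearGroup (Fin 5) F →* G)
    (h : ∃ (i j : Fin 5) (hij : i ≠ j) (a : F), π (SpecialLinearGroup.transvection hij a) ≠ 1) :
    π.ker ≤ Subgroup.center (SpecialLinearGroup (Fin 5) F) := by
  obtain ⟨i, j, hij, a, ha⟩ := h
  have hsimple : IsSimpleGroup (Matrix.ProjectiveSpecialLinearGroup (Fin 5) F) :=
    Cfsg.Agent.LieClassical.SLGen.psl_isSimpleGroup (by simp)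
  let ψ : SpecialLinearGroup (Fin 5) F →* Matrix.ProjectiveSpecialLinearGroup (Fin 5) F := QuotientGroup.mk' _
  have hψsurj : Function.Surjective ψ := QuotientGroup.mk'_surjective _
  have hψker : ∀ s, ψ s = 1 → s ∈ Subgroup.center (SpecialLinearGroup (Fin 5) F) := fun s hs =>
    (QuotientGroup.eq_one_iff _).1 hs
  have hnorm : (π.ker.map ψ).Normal := Subgroup.Normal.map inferInstance ψ hψsurj
  rcases hnorm.eq_bot_or_eq_top with h1 | h1
  · rw [Subgroup.map_eq_bot_iff] at h1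
    intro s hs
    exact hψker s (h1 hs)
  · exfalso
    have h2 : ∀ s t : SpecialLinearGroup (Fin 5) F, π s * π t = π t * π s := by
      intro s t
      have h3 : ψ s ∈ π.ker.map ψ := by rw [h1]; exact Subgroup.mem_top _
      obtain ⟨k, hk, hks⟩ := h3
      have h4 : k⁻¹ * s ∈ Subgroup.center (SpecialLinearGroup (Fin 5) F) := by
        apply hψker
        rw [map_mul, map_inv, hks, inv_mul_cancel]
      have h5 := congrArg π (Subgroup.mem_center_iff.1 h4 t)
      have h6 : π (k⁻¹ * s) = π s := by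
        rw [map_mul, map_inv, MonoidHom.mem_ker.1 hk, inv_one, one_mul]
      rw [map_mul π t, map_mul π (k⁻¹ * s), h6] at h5
      exact h5.symm
    apply ha
    obtain ⟨l, hli, hlj⟩ : ∃ l : Fin 5, i ≠ l ∧ l ≠ j :=
      (by decide : ∀ i j : Fin 5, ∃ l : Fin 5, i ≠ l ∧ l ≠ j) i j
    have h7 := Cfsg.Agent.LieClassical.SLGen.commutator_transvection (F := F) hij hli hlj a 1
    rw [mul_one] at h7
    rw [← h7, map_commutatorElement, commutatorElement_eq_one_iff_mul_comm]
    exact h2 _ _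

theorem ex126 : expo chevE8 (rt1 0 1) 126 = 0 ∧ expo chevE8 (rt1 1 2) 126 = 0 ∧ expo chevE8 (rt1 2 3) 126 = -1 ∧
    expo chevE8 (rt1 3 4) 126 = 0 := by decide +kernel

/-- **Injectivity of `φ₁`.** -/
theorem inj1 : Function.Injective (ph1 KK) := by
  rw [← MonoidHom.ker_eq_bot_iff, Subgroup.eq_bot_iff_forall]
  intro A hA
  have h1 : A ∈ Subgroup.center (SpecialLinearGroup (Fin 5) KK) := by
    refine ker_central (ph1 KK) ⟨0, 1, by decide, 1, fun h => ?_⟩ hA
    rw [ph1_tv] at h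
    have := X_eq_one (rt1_lt 0 1) h
    rw [mul_one] at this
    have h2 : ((sg1 0 1 : ℤ) : KK) * (sg1 0 1 : KK) = 1 := by rw [← Int.cast_mul, td1, Int.cast_one]
    rw [this, zero_mul] at h2
    exact zero_ne_one h2
  rw [Matrix.SpecialLinearGroup.mem_center_iff] at h1
  obtain ⟨c, hc5, hcA⟩ := h1
  have hc0 : c ≠ 0 := by
    intro h0
    rw [h0, zero_pow (by simp)] at hc5
    exact zero_ne_one hc5
  obtain ⟨u, hu⟩ : ∃ u : KKˣ, (u : KK) = c := ⟨Units.mk0 c hc0, rfl⟩
  have hu5 : u ^ 5 = 1 := by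
    apply Units.ext
    rw [Units.val_pow_eq_pow_val, hu, Units.val_one]
    simpa using hc5
  have hp : ∏ _i : Fin 5, u = 1 := by
    rw [Finset.prod_const, Finset.card_univ, Fintype.card_fin, hu5]
  have hAd : A = dg (fun _ => u) hp := by
    apply Subtype.ext
    rw [← hcA]
    show Matrix.scalar (Fin 5) c = Matrix.diagonal fun _ => (u : KK)
    rw [hu]
    rfl
  obtain ⟨-, hX⟩ := ph1_dg (fun _ : Fin 5 => u) hp
  have h3 := hX 126
  rw [← hAd, MonoidHom.mem_ker.1 hA] at h3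
  have h4 : wv rt1 (fun _ => u) 126 = 1 := by
    apply Units.ext
    rw [Units.val_one]
    exact h3.symm.trans (cX_one _ _)
  unfold wv at h4
  obtain ⟨e0, e1, e2, e3⟩ := ex126
  rw [e0, e1, e2, e3] at h4
  have h5 : u ^ 3 = 1 := by
    have : (pp (fun _ : Fin 5 => u) 2) = u ^ 3 := by
      show u * u * u = u ^ 3
      rw [pow_succ, pow_two]
    rw [this] at h4
    simpa using h4
  have h6 : u = 1 := by
    calc u = (u ^ 3) ^ 2 * (u ^ 5)⁻¹ := by rw [← pow_mul]; group
      _ = 1 := by rw [h5, hu5]; simp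
  rw [hAd]
  exact dg_eq_one fun _ => h6

/-- **The centraliser of `x₀`, unconditional.** -/
theorem cent_x0' {g : ↥(chevE8.group (ZMod 3))}
    (hg : g * ph2 (ZMod 3) Cfsg.Agent.H908.E8L.Mo = ph2 (ZMod 3) Cfsg.Agent.H908.E8L.Mo * g) :
    ∃ (e : SpecialLinearGroup (Fin 5) (ZMod 3)) (i : ℕ),
      g = ph1 (ZMod 3) e * ph2 (ZMod 3) Cfsg.Agent.H908.E8L.Sg ^ i := cent_x0 inj1 hg

end Cfsg.Agent.H238.E8
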