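import Cfsg.Agent.H238.E8.RTabDef

/-!
# Check of the tables of the simple reflections of `E₈` with signs (helper238)

`rt i` packs `2 * reflectRoot i s + [sign]` (9 bits per entry, index `2 s + b`); `act_eq` : the action of a word on the
signed roots, evaluated on packed numbers.
-/

set_option autoImplicit false
set_option maxRecDepth 100000

namespace Cfsg.Agent.H238.E8.RTab

open Cfsg Cfsg.Lie Cfsg.Agent.H992.E8X
open Cfsg.Agent.ChevalleyStructure.NSimple (eta)

theorem t2 : ∀ s : Fin 240, chevE8.reflectRoot 2 s.val = dr (ent r2 (2 * s.val)) ∧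
    eta chevE8 2 s.val = ds (ent r2 (2 * s.val)) ∧ dr (ent r2 (2 * s.val + 1)) = dr (ent r2 (2 * s.val)) ∧
    ds (ent r2 (2 * s.val + 1)) = -ds (ent r2 (2 * s.val)) := by decide +kernel

theorem t3 : ∀ s : Fin 240, chevE8.reflectRoot 3 s.val = dr (ent r3 (2 * s.val)) ∧
    eta chevE8 3 s.val = ds (ent r3 (2 * s.val)) ∧ dr (ent r3 (2 * s.val + 1)) = dr (ent r3 (2 * s.val)) ∧
    ds (ent r3 (2 * s.val + 1)) = -ds (ent r3 (2 * s.val)) := by decide +kernel

end Cfsg.Agent.H238.E8.RTab
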