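import Cfsg.Agent.H238.E8.RTabA
import Cfsg.Agent.H238.E8.RTabB
import Cfsg.Agent.H238.E8.RTabC
import Cfsg.Agent.H238.E8.RTabD

/-!
# Tables of the simple reflections of `E₈` with signs (helper238)

`rt i` packs `2 * reflectRoot i s + [sign]` (9 bits per entry, index `2 s + b`); `act_eq` : the action of a word on the
signed roots, evaluated on packed numbers.
-/

set_option autoImplicit false
set_option maxRecDepth 100000

namespace Cfsg.Agent.H238.E8.RTab

open Cfsg Cfsg.Lie Cfsg.Agent.H992.E8X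
open Cfsg.Agent.ChevalleyStructure.NSimple (eta)

theorem tab (i : ℕ) (hi : i < 8) : ∀ s : Fin 240, chevE8.reflectRoot i s.val = dr (ent (row i) (2 * s.val)) ∧
    eta chevE8 i s.val = ds (ent (row i) (2 * s.val)) ∧ dr (ent (row i) (2 * s.val + 1)) = dr (ent (row i) (2 * s.val)) ∧
    ds (ent (row i) (2 * s.val + 1)) = -ds (ent (row i) (2 * s.val)) := by
  match i, hi with
  | 0, _ => exact t0
  | 1, _ => exact t1
  | 2, _ => exact t2
  | 3, _ => exact t3
  | 4, _ => exact t4
  | 5, _ => exact t5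
  | 6, _ => exact t6
  | 7, _ => exact t7
  | n + 8, h => exact absurd h (by omega)

theorem step {i m : ℕ} (hi : i < 8) (hm : dr m < 240) :
    chevE8.reflectRoot i (dr m) = dr (ent (row i) m) ∧ eta chevE8 i (dr m) * ds m = ds (ent (row i) m) := by
  obtain ⟨h1, h2, h3, h4⟩ := tab i hi ⟨dr m, hm⟩
  simp only at h1 h2 h3 h4
  rcases Nat.mod_two_eq_zero_or_one m with h | h
  · have e : 2 * dr m = m := by unfold dr; omega
    rw [e] at h1 h2
    refine ⟨h1, ?_⟩
    rw [h2]
    unfold ds
    rw [if_pos h, mul_one]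
  · have e : 2 * dr m + 1 = m := by unfold dr; omega
    rw [e] at h3 h4
    refine ⟨by rw [h1, h3], ?_⟩
    rw [h4, h2]
    have e1 : ds m = -1 := by
      unfold ds
      rw [if_neg (by omega)]
    rw [e1, mul_neg, mul_one]

theorem act_eq (l : List ℕ) (hl : ∀ i ∈ l, i < 8) {s : ℕ} (hs : s < 240) :
    dr (run l (2 * s)) < 240 ∧ act l s = (dr (run l (2 * s)), ds (run l (2 * s))) := by
  induction l with
  | nil =>
    have e : dr (2 * s) = s := by unfold dr; omega
    have e' : ds (2 * s) = 1 := by unfold ds; rw [if_pos (by omega)]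
    show dr (2 * s) < 240 ∧ (s, (1 : ℤ)) = (dr (2 * s), ds (2 * s))
    rw [e, e']
    exact ⟨hs, rfl⟩
  | cons i l ih =>
    obtain ⟨h1, h2⟩ := ih fun j hj => hl j (List.mem_cons_of_mem _ hj)
    have hi := hl i List.mem_cons_self
    obtain ⟨h3, h4⟩ := step hi h1
    have h5 : act (i :: l) s = (chevE8.reflectRoot i (act l s).1, eta chevE8 i (act l s).1 * (act l s).2) := rfl
    have h6 : run (i :: l) (2 * s) = ent (row i) (run l (2 * s)) := rfl
    rw [h5, h6, h2]
    refine ⟨?_, ?_⟩
    · rw [← h3]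
      exact refl_lt hi h1
    · rw [h3, h4]

end Cfsg.Agent.H238.E8.RTab
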