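import Cfsg.Agent.H238.E8.Frame
import Cfsg.Agent.H238.E8.RTab
import Cfsg.Agent.H576.E8L.Io
import Cfsg.Agent.H239.E8P.Mono
import Mathlib

/-!
# The element `t₀` of `E₈(K)` lifting `-1` (helper238)

`t0 K` : product of the `n_i` along a reduced word of the longest element; `t0_io` : it acts on `sl(W0) + sl(W1)` as
`A ↦ -Aᵀ`; `t0_conj` : `t₀ X_r(c) t₀⁻¹ = X_{-r}(±c)`.
-/

set_option autoImplicit false
set_option linter.unusedSectionVars false
set_option maxRecDepth 100000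

namespace Cfsg.Agent.H238.E8

open Matrix Cfsg Cfsg.Lie Cfsg.Agent.ChevalleyStructure Cfsg.Agent.ChevalleyStructure.Elts
open Cfsg.Agent.H992.E8X hiding e8T
open Cfsg.Agent.ChevalleyStructure.NSimple (eta)
open Cfsg.Agent.ChevalleyStructure.NConj (nS)
open Cfsg.Agent.ChevalleyStructure.XColumns (ev corv)
open Cfsg.Agent.H239.E8P
open Cfsg.Agent.H576.E8L

/-- a reduced word of the longest element -/
def w0w : List ℕ := [7, 6, 5, 4, 3, 2, 1, 3, 4, 5, 6, 0, 2, 3, 4, 5, 1, 3, 4, 2, 3, 0, 2, 1, 3, 4, 5, 6, 7, 6, 5, 4, 3, 2, 1, 3, 4, 5, 6, 0, 2, 3, 4, 5, 1, 3, 4, 2, 3, 0, 2, 1, 3, 4, 5, 6, 7, 6, 5, 4, 3, 2, 1, 3, 4, 5, 6, 0, 2, 3, 4, 5, 1, 3, 4, 2, 3, 0, 2, 1, 3, 4, 5, 6, 0, 2, 3, 4, 5, 1, 3, 4, 2, 3, 0, 2, 1, 3, 4, 5, 1, 3, 4, 2, 3, 0, 2, 1, 3, 4, 2, 3, 0, 2, 1, 3, 0, 2, 1, 0]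

theorem w0w_lt : ∀ i ∈ w0w, i < 8 := by decide

theorem act0 (i j : Fin 5) (h : i ≠ j) : H992.E8X.act w0w (w0 i j) = (w0 j i, - (s0 i j * s0 j i)) := by
  have h1 : ∀ i j : Fin 5, i ≠ j → (RTab.dr (RTab.run w0w (2 * w0 i j)), RTab.ds (RTab.run w0w (2 * w0 i j))) =
      (w0 j i, - (s0 i j * s0 j i)) := by decide +kernel
  rw [(RTab.act_eq w0w w0w_lt (Cfsg.Agent.H576.E8L.w0_lt i j)).2]
  exact h1 i j h

theorem act1 (i j : Fin 5) (h : i ≠ j) : H992.E8X.act w0w (w1 i j) = (w1 j i, - (s1 i j * s1 j i)) := by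
  have h1 : ∀ i j : Fin 5, i ≠ j → (RTab.dr (RTab.run w0w (2 * w1 i j)), RTab.ds (RTab.run w0w (2 * w1 i j))) =
      (w1 j i, - (s1 i j * s1 j i)) := by decide +kernel
  rw [(RTab.act_eq w0w w0w_lt (Cfsg.Agent.H576.E8L.w1_lt i j)).2]
  exact h1 i j h

/-- the simple roots -/
theorem actS : ∀ i : Fin 8, (H992.E8X.act w0w (chevE8.simple i)).1 = chevE8.neg (chevE8.simple i) := by
  intro i
  have h1 : ∀ i : Fin 8, chevE8.simple i < 240 := by decide +kernel
  have h2 : ∀ i : Fin 8, RTab.dr (RTab.run w0w (2 * chevE8.simple i)) = chevE8.neg (chevE8.simple i) := by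
    decide +kernel
  rw [(RTab.act_eq w0w w0w_lt (h1 i)).2]
  exact h2 i

section
variable {K : Type} [Field K]

theorem mono_nW (l : List ℕ) (hl : ∀ i ∈ l, i < 8) :
    Mono hE8 ((nW K l : ↥(chevE8.group K)) : GL chevE8.Idx K) (fun r => (H992.E8X.act l r).1)
      (fun r => (((H992.E8X.act l r).2 : ℤ) : K)) := by
  induction l with
  | nil =>
    have h1 : ((nW K [] : ↥(chevE8.group K)) : GL chevE8.Idx K) = 1 := rfl
    rw [h1]
    refine ⟨fun r hr => hr, fun r _ => ?_, fun _ _ => rfl, fun r _ => ?_, fun r _ => ?_, fun r _ t => ?_⟩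
    · show (((1 : ℤ)) : K) ≠ 0
      rw [Int.cast_one]; exact one_ne_zero
    · show _ = ((1 : ℤ) : K) • _
      rw [Units.val_one, Matrix.one_mulVec, Int.cast_one, one_smul]; rfl
    · rw [Units.val_one, Matrix.one_mulVec]; rfl
    · show _ = xG hE8 r (((1 : ℤ) : K) * t) * 1
      rw [Int.cast_one, one_mul, one_mul, mul_one]
  | cons i l ih =>
    have h1 := ih (fun j hj => hl j (List.mem_cons_of_mem _ hj))
    have hi : i < chevE8.rank := hl i List.mem_cons_self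
    have h2 := (mono_nS (F := K) hE8 hi).mul h1
    have h3 : ((nW K (i :: l) : ↥(chevE8.group K)) : GL chevE8.Idx K) =
        nS hE8 K i * ((nW K l : ↥(chevE8.group K)) : GL chevE8.Idx K) := rfl
    rw [h3]
    have h4 : (fun r => (((H992.E8X.act (i :: l) r).2 : ℤ) : K)) =
        fun r => ((eta chevE8 i (H992.E8X.act l r).1 : ℤ) : K) * (((H992.E8X.act l r).2 : ℤ) : K) := by
      funext r
      show ((eta chevE8 i (H992.E8X.act l r).1 * (H992.E8X.act l r).2 : ℤ) : K) = _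
      rw [Int.cast_mul]
    rw [h4]
    exact h2

variable (K) in
/-- the element `t₀` -/
noncomputable def t0 : ↥(chevE8.group K) := nW K w0w

theorem rv_eq_ev (r : ℕ) : rv K r = ev chevE8 K r := by
  funext a
  rcases a with i | u
  · rw [rv_inl]; rfl
  · rw [rv_inr]; rfl

theorem hv_eq_corv (r : ℕ) : hv K r = corv chevE8 K r := by
  funext a
  rcases a with i | u
  · rfl
  · rfl

theorem tabN0 : ∀ b : Fin 4, w0 b.succ b.castSucc = chevE8.neg (w0 b.castSucc b.succ) ∧ w0 b.castSucc b.succ < 240 := by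
  decide +kernel
theorem tabN1 : ∀ b : Fin 4, w1 b.succ b.castSucc = chevE8.neg (w1 b.castSucc b.succ) ∧ w1 b.castSucc b.succ < 240 := by
  decide +kernel
theorem w0_lt : ∀ i j, w0 i j < 240 := by decide +kernel
theorem w1_lt : ∀ i j, w1 i j < 240 := by decide +kernel
theorem s0s : ∀ i j, i ≠ j → s0 i j * s0 i j = 1 ∧ s0 j i = s0 i j := by decide
theorem s1s : ∀ i j, i ≠ j → s1 i j * s1 i j = 1 ∧ s1 j i = s1 i j := by decide

theorem hv_neg {r : ℕ} (hr : r < 240) : hv K (chevE8.neg r) = - hv K r := by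
  rw [hv_eq_corv, hv_eq_corv]
  exact Cfsg.Agent.ChevalleyStructure.Strings.corv_neg (Cfsg.Agent.ChevalleyStructure.StringMem.rootOK_of_mem (by simp) hr)

/-- the action on one block -/
theorem t0_WM {w : Fin 5 → Fin 5 → ℕ} {s : Fin 5 → Fin 5 → ℤ} (hlt : ∀ i j, w i j < 240)
    (hact : ∀ i j : Fin 5, i ≠ j → H992.E8X.act w0w (w i j) = (w j i, - (s i j * s j i)))
    (hs : ∀ i j, i ≠ j → s i j * s i j = 1 ∧ s j i = s i j)
    (hn : ∀ b : Fin 4, w b.succ b.castSucc = chevE8.neg (w b.castSucc b.succ) ∧ w b.castSucc b.succ < 240)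
    (A : Matrix (Fin 5) (Fin 5) K) :
    ((t0 K : GL chevE8.Idx K) : Matrix chevE8.Idx chevE8.Idx K) *ᵥ WM K w s A = WM K w s (-Aᵀ) := by
  have hM := mono_nW (K := K) w0w w0w_lt
  have hne : ∀ b : Fin 4, b.castSucc ≠ b.succ := by decide
  have hr : ∀ i j, i ≠ j → ((t0 K : GL chevE8.Idx K) : Matrix chevE8.Idx chevE8.Idx K) *ᵥ rv K (w i j) =
      -(rv K (w j i)) := by
    intro i j hij
    rw [rv_eq_ev, rv_eq_ev]
    have h1 := hM.evm (w i j) (hlt i j)
    have h2 : ((t0 K : GL chevE8.Idx K) : Matrix chevE8.Idx chevE8.Idx K) *ᵥ ev chevE8 K (w i j) =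
        (((H992.E8X.act w0w (w i j)).2 : ℤ) : K) • ev chevE8 K (H992.E8X.act w0w (w i j)).1 := h1
    rw [h2, hact i j hij]
    obtain ⟨g1, g2⟩ := hs i j hij
    rw [g2, g1]
    simp
  have hc : ∀ b : Fin 4, ((t0 K : GL chevE8.Idx K) : Matrix chevE8.Idx chevE8.Idx K) *ᵥ hv K (w b.castSucc b.succ) =
      -(hv K (w b.castSucc b.succ)) := by
    intro b
    rw [← hv_neg (hn b).2, ← (hn b).1, hv_eq_corv, hv_eq_corv]
    have h1 := hM.corvm (w b.castSucc b.succ) (hn b).2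
    have h2 : ((t0 K : GL chevE8.Idx K) : Matrix chevE8.Idx chevE8.Idx K) *ᵥ corv chevE8 K (w b.castSucc b.succ) =
        corv chevE8 K (H992.E8X.act w0w (w b.castSucc b.succ)).1 := h1
    rw [h2, hact _ _ (hne b)]
  rw [WM_apply, WM_apply, Matrix.mulVec_add]
  congr 1
  · rw [Matrix.mulVec_sum]
    have e1 : ∀ i, ((t0 K : GL chevE8.Idx K) : Matrix chevE8.Idx chevE8.Idx K) *ᵥ
        (∑ j, if i = j then (0 : chevE8.Idx → K) else ((s i j : K) * A i j) • rv K (w i j)) =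
        ∑ j, if i = j then (0 : chevE8.Idx → K) else ((s j i : K) * (-Aᵀ) j i) • rv K (w j i) := by
      intro i
      rw [Matrix.mulVec_sum]
      refine Finset.sum_congr rfl fun j _ => ?_
      split_ifs with hij
      · rw [Matrix.mulVec_zero]
      · rw [Matrix.mulVec_smul, hr i j hij, (hs i j hij).2, smul_neg, Matrix.neg_apply, Matrix.transpose_apply,
          mul_neg, neg_smul]
    simp only [e1]
    rw [Finset.sum_comm]
    refine Finset.sum_congr rfl fun j _ => Finset.sum_congr rfl fun i _ => ?_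
    by_cases hij : i = j
    · rw [if_pos hij, if_pos hij.symm]
    · rw [if_neg hij, if_neg fun h => hij h.symm]
  · rw [Matrix.mulVec_sum]
    refine Finset.sum_congr rfl fun b _ => ?_
    rw [Matrix.mulVec_smul, hc b, smul_neg, ← neg_smul]
    congr 1
    unfold ps
    rw [← Finset.sum_neg_distrib]
    refine Finset.sum_congr rfl fun c _ => ?_
    split_ifs
    · rfl
    · rw [neg_zero]

/-- **`t₀` acts as `A ↦ -Aᵀ`.** -/
theorem t0_io (A0 A1 : Matrix (Fin 5) (Fin 5) K) :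
    ((t0 K : GL chevE8.Idx K) : Matrix chevE8.Idx chevE8.Idx K) *ᵥ io K (A0, A1) = io K (-A0ᵀ, -A1ᵀ) := by
  rw [io_apply, io_apply, Matrix.mulVec_add, t0_WM w0_lt act0 s0s tabN0, t0_WM w1_lt act1 s1s tabN1]

end

end Cfsg.Agent.H238.E8
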