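import Cfsg.Agent.H238.E8.T0
import Cfsg.Agent.H238.E8.Cent
import Cfsg.Agent.H948.P3.Grp
import Cfsg.Agent.H239.E8P.Act
import Mathlib

/-!
# The element `t₀` over the algebraic closure (helper238; S5925 box F, piece B1)
-/

set_option autoImplicit false
set_option linter.unusedSectionVars false
set_option maxRecDepth 100000

namespace Cfsg.Agent.H238.E8

open CoxeterSystem Matrix Cfsg Cfsg.Lie Cfsg.Lie.ChevalleyDatum
open Cfsg.Agent.ChevalleyStructure Cfsg.Agent.ChevalleyStructure.Elts Cfsg.Agent.ChevalleyStructure.CoxeterGeom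
  Cfsg.Agent.ChevalleyStructure.CoxeterGeomTypes Cfsg.Agent.ChevalleyStructure.NPerm
  Cfsg.Agent.ChevalleyStructure.RootVec Cfsg.Agent.ChevalleyStructure.RootVecTab
open Cfsg.Agent.Tits.Roots Cfsg.Agent.Tits.Core Cfsg.Agent.Nodes Cfsg.Agent.Nodes.Reps Cfsg.Agent.Nodes.BNOf
  Cfsg.Agent.Nodes.RGDChev
open Cfsg.Agent.KFacts.RgdField Cfsg.Agent.KFacts.RgdChevCoord
open Cfsg.Agent.H129.TorusChar
open Cfsg.Agent.H942.E8Tab Cfsg.Agent.H942.CB
open Cfsg.Agent.H540.E8C (KK)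
open Cfsg.Agent.H948.P3 (hNs el fz_el)
open Cfsg.Agent.H992.E8X (nW hE8)
open Cfsg.Agent.H239.E8P (io1 EV HV RT SG)

theorem toF8_val {i : ℕ} (hi : i < 8) : (toF8 i).val = i := Nat.mod_eq_of_lt hi

section
variable {k : Type} [Field k]

theorem nc_eq {i : ℕ} (hi : i < 8) (h : nG hE8 (chevE8.simple i) 1 ∈ chevE8.group k) :
    nc e8T k (toF8 i) = ⟨nG hE8 (chevE8.simple i) 1, h⟩ := by
  apply Subtype.ext
  have h1 : ((nc e8T k (toF8 i) : ↥(chevE8.group k)) : GL chevE8.Idx k) = nG hE8 (chevE8.simple (toF8 i).val) 1 := rfl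
  rw [h1, toF8_val hi]

theorem nW_cons {i : ℕ} (hi : i < 8) (l : List ℕ) : nW k (i :: l) = nc e8T k (toF8 i) * nW k l := by
  rw [nc_eq hi (nG_mem_group hE8 _ _)]
  exact List.prod_cons

end

theorem rp_nW (l : List ℕ) (hl : ∀ i ∈ l, i < 8) : Rp cs8 hNs (word l) (nW KK l) := by
  induction l with
  | nil => exact rp_one
  | cons i l ih =>
    have h1 := ih fun j hj => hl j (List.mem_cons_of_mem _ hj)
    have hi : i < 8 := hl i List.mem_cons_self
    rw [word_cons, nW_cons hi]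
    exact (rp_simple cs8 hNs (toF8 i)).mul h1

theorem tabw : ∀ i : Fin 8, actW w0w (el i) = (el i).map fun c => -c := by decide +kernel

theorem el_neg : ∀ i j : Fin 8, ((el i).map fun c => -c).getD j 0 = -(el i).getD j 0 := by decide +kernel

theorem rep_w0 (x : Fin 8 → ℤ) : rep cs8 e8T.isCartan (word w0w) x = -x := by
  funext i
  have h1 : rep cs8 e8T.isCartan (word w0w) x i = fz (actW w0w (el i)) x := by
    rw [fz_actW w0w w0w_lt (by simp [el]), fz_el]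
  rw [h1, tabw, Pi.neg_apply, ← fz_el i x]
  unfold fz
  rw [← Finset.sum_neg_distrib]
  refine Finset.sum_congr rfl fun j _ => ?_
  rw [← neg_mul, el_neg]

/-- `t₀` inverts the torus -/
theorem t0_inv {s : ↥(chevE8.group KK)} (hs : s ∈ TT chevE8 KK) : t0 KK * s = s⁻¹ * t0 KK := by
  have hR := rp_nW w0w w0w_lt
  have hs' : t0 KK * s * (t0 KK)⁻¹ ∈ TT chevE8 KK := (Subgroup.mem_normalizer_iff.1 hR.mem_normalizer s).1 hs
  have h1 : ∀ x, cX e8T (t0 KK * s * (t0 KK)⁻¹) (-x) = cX e8T s x := by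
    intro x
    have := cX_rp e8T cs8 lf 3 hR hs x
    rwa [rep_w0] at this
  have h2 : t0 KK * s * (t0 KK)⁻¹ = s⁻¹ := by
    refine cX_inj e8T hs' (inv_mem hs) fun i => ?_
    have h3 := h1 (-sr i)
    rw [_root_.neg_neg, (isMC_cX e8T hs).neg] at h3
    rw [h3]
    have h4 : cX e8T s⁻¹ (sr i) * cX e8T s (sr i) = 1 := by
      rw [← cX_mul e8T (inv_mem hs) hs, inv_mul_cancel, cX_one]
    exact (eq_inv_of_mul_eq_one_left h4).symm
  rw [← h2]; group

theorem RT0 : ∀ i j : Fin 5, i ≠ j → RT 0 i j = Cfsg.Agent.H576.E8L.w0 i j ∧ SG 0 i j = Cfsg.Agent.H576.E8L.s0 i j := by decide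
theorem RT1 : ∀ i j : Fin 5, i ≠ j → RT 1 i j = Cfsg.Agent.H576.E8L.w1 i j ∧ SG 1 i j = Cfsg.Agent.H576.E8L.s1 i j := by decide

/-- the two forms of the coordinates agree -/
theorem io1_eq0 (A : Matrix (Fin 5) (Fin 5) KK) :
    io1 KK 0 A = Cfsg.Agent.H576.E8L.WM KK Cfsg.Agent.H576.E8L.w0 Cfsg.Agent.H576.E8L.s0 A := by
  rw [Cfsg.Agent.H239.E8P.io1_apply, Cfsg.Agent.H576.E8L.WM_apply]
  have hne : ∀ b : Fin 4, b.castSucc ≠ b.succ := by decide
  congr 1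
  · refine Finset.sum_congr rfl fun i _ => Finset.sum_congr rfl fun j _ => ?_
    split_ifs with h
    · rw [zero_smul]
    · rw [EV, (RT0 i j h).1, (RT0 i j h).2, rv_eq_ev, smul_smul, mul_comm]
  · refine Finset.sum_congr rfl fun b _ => ?_
    rw [HV, (RT0 _ _ (hne b)).1, hv_eq_corv]
    rfl

theorem io1_eq1 (A : Matrix (Fin 5) (Fin 5) KK) :
    io1 KK 1 A = Cfsg.Agent.H576.E8L.WM KK Cfsg.Agent.H576.E8L.w1 Cfsg.Agent.H576.E8L.s1 A := by
  rw [Cfsg.Agent.H239.E8P.io1_apply, Cfsg.Agent.H576.E8L.WM_apply]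
  have hne : ∀ b : Fin 4, b.castSucc ≠ b.succ := by decide
  congr 1
  · refine Finset.sum_congr rfl fun i _ => Finset.sum_congr rfl fun j _ => ?_
    split_ifs with h
    · rw [zero_smul]
    · rw [EV, (RT1 i j h).1, (RT1 i j h).2, rv_eq_ev, smul_smul, mul_comm]
  · refine Finset.sum_congr rfl fun b _ => ?_
    rw [HV, (RT1 _ _ (hne b)).1, hv_eq_corv]
    rfl

theorem io1_io (A0 A1 : Matrix (Fin 5) (Fin 5) KK) :
    Cfsg.Agent.H576.E8L.io KK (A0, A1) = io1 KK 0 A0 + io1 KK 1 A1 := by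
  rw [Cfsg.Agent.H576.E8L.io_apply, io1_eq0, io1_eq1]

/-- **`t₀` acts as `A ↦ -Aᵀ` on both components.** -/
theorem t0_io1 (c : Fin 2) (A : Matrix (Fin 5) (Fin 5) KK) :
    ((t0 KK : GL chevE8.Idx KK) : Matrix chevE8.Idx chevE8.Idx KK) *ᵥ io1 KK c A = io1 KK c (-Aᵀ) := by
  fin_cases c
  · show _ *ᵥ io1 KK 0 A = io1 KK 0 (-Aᵀ)
    rw [io1_eq0, io1_eq0]
    exact t0_WM w0_lt act0 s0s tabN0 A
  · show _ *ᵥ io1 KK 1 A = io1 KK 1 (-Aᵀ)
    rw [io1_eq1, io1_eq1]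
    exact t0_WM w1_lt act1 s1s tabN1 A

theorem diag_le {k : Type} [Field k] : chevE8.diagonalSubgroup k ≤ chevE8.group k := by
  refine (Subgroup.closure_le _).2 ?_
  rintro g ⟨r, t, hr, ht, hg⟩
  have h1 : g = hG hE8 r t := Units.ext (hg.trans (coe_hG hE8 r t).symm)
  rw [h1]
  exact hG_mem_group hE8 r t

/-- **Piece B1.** -/
theorem B1 : ∃ t ∈ chevE8.group KK, (∀ s ∈ chevE8.diagonalSubgroup KK, t * s = s⁻¹ * t) ∧
    ∃ d : Fin 2 → Fin 5 → KK, (∀ c i, d c i * d c i = 1) ∧ ∀ c (A : Matrix (Fin 5) (Fin 5) KK), A.trace = 0 →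
      (t : Matrix chevE8.Idx chevE8.Idx KK) *ᵥ io1 KK c A =
        io1 KK c (-(Matrix.diagonal (d c) * Aᵀ * Matrix.diagonal (d c))) := by
  refine ⟨(t0 KK : ↥(chevE8.group KK)), (t0 KK).2, fun s hs => ?_, fun _ _ => 1, fun _ _ => one_mul 1, fun c A _ => ?_⟩
  · have hsg : s ∈ chevE8.group KK := diag_le hs
    have h1 := t0_inv (s := ⟨s, hsg⟩) (by
      show (⟨s, hsg⟩ : ↥(chevE8.group KK)) ∈ (chevE8.diagonalSubgroup KK).subgroupOf (chevE8.group KK)
      rw [Subgroup.mem_subgroupOf]; exact hs)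
    exact congrArg Subtype.val h1
  · rw [t0_io1]
    congr 2
    rw [show (Matrix.diagonal fun _ : Fin 5 => (1 : KK)) = 1 from Matrix.diagonal_one, one_mul, mul_one]

end Cfsg.Agent.H238.E8
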