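import Cfsg.Agent.H238.E8.Cent
import Cfsg.Agent.H988.E8.TorAct
import Mathlib

/-!
# The torus fixed by the twisted Frobenius map (helper238)
-/

set_option autoImplicit false
set_option linter.unusedSectionVars false
set_option maxRecDepth 100000

namespace Cfsg.Agent.H238.E8

open CoxeterSystem Matrix Cfsg Cfsg.Lie Cfsg.Lie.ChevalleyDatum
open Cfsg.Agent.ChevalleyStructure Cfsg.Agent.ChevalleyStructure.Elts Cfsg.Agent.ChevalleyStructure.CoxeterGeom
  Cfsg.Agent.ChevalleyStructure.CoxeterGeomTypes Cfsg.Agent.ChevalleyStructure.NPerm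
  Cfsg.Agent.ChevalleyStructure.RootVec Cfsg.Agent.ChevalleyStructure.RootVecTab
open Cfsg.Agent.Tits.Roots Cfsg.Agent.Tits.Core Cfsg.Agent.Nodes Cfsg.Agent.Nodes.Reps Cfsg.Agent.Nodes.BNOf
  Cfsg.Agent.Nodes.RGDChev
open Cfsg.Agent.KFacts.RgdField Cfsg.Agent.KFacts.RgdChevCoord Cfsg.Agent.BpExc.TorCent Cfsg.Agent.BpExc.TorChev
open Cfsg.Agent.H129.TorusChar
open Cfsg.Agent.BpExc.FamUntw Cfsg.Agent.BpExc.FamInst Cfsg.Agent.BpExc.FamField
open Cfsg.Agent.H942.E8Tab Cfsg.Agent.H942.E8Alc Cfsg.Agent.H942.CB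
open Cfsg.Agent.H540.E8C (KK)
open Cfsg.Agent.ChevalleyStructure.HMatDiagAll (expo)
open Cfsg.Agent.H992.E8X (X hE8)

theorem ppow {G : Type} [CommGroup G] (a b c d : G) (e0 e1 e2 e3 : ℤ) :
    a ^ e0 * (a * b) ^ e1 * (a * b * c) ^ e2 * (a * b * c * d) ^ e3 =
      a ^ (e0 + e1 + e2 + e3) * b ^ (e1 + e2 + e3) * c ^ (e2 + e3) * d ^ e3 := by
  simp only [mul_zpow, _root_.zpow_add]
  simp only [mul_left_comm, mul_assoc]

theorem cyc5 {G : Type} [CommGroup G] (a0 a1 a2 a3 a4 : G) :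
    a1 / a0 * (a2 / a1) * (a3 / a2) * (a4 / a3) * (a0 / a4) = 1 := by
  rw [div_mul_div_cancel', div_mul_div_cancel', div_mul_div_cancel', div_mul_div_cancel', div_self']

section W
variable {k : Type} [Field k]

/-- exponents of `d₀, …, d₄` -/
def me (rt : Fin 5 → Fin 5 → ℕ) (s : ℕ) : Fin 5 → ℤ :=
  ![expo chevE8 (rt 0 1) s + expo chevE8 (rt 1 2) s + expo chevE8 (rt 2 3) s + expo chevE8 (rt 3 4) s,
    expo chevE8 (rt 1 2) s + expo chevE8 (rt 2 3) s + expo chevE8 (rt 3 4) s,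
    expo chevE8 (rt 2 3) s + expo chevE8 (rt 3 4) s, expo chevE8 (rt 3 4) s, 0]

theorem wv_eq (rt : Fin 5 → Fin 5 → ℕ) (d : Fin 5 → kˣ) (s : ℕ) : wv rt d s = ∏ a, d a ^ me rt s a := by
  rw [Fin.prod_univ_five]
  show d 0 ^ expo chevE8 (rt 0 1) s * (d 0 * d 1) ^ expo chevE8 (rt 1 2) s *
    (d 0 * d 1 * d 2) ^ expo chevE8 (rt 2 3) s * (d 0 * d 1 * d 2 * d 3) ^ expo chevE8 (rt 3 4) s =
    d 0 ^ (expo chevE8 (rt 0 1) s + expo chevE8 (rt 1 2) s + expo chevE8 (rt 2 3) s + expo chevE8 (rt 3 4) s) *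
    d 1 ^ (expo chevE8 (rt 1 2) s + expo chevE8 (rt 2 3) s + expo chevE8 (rt 3 4) s) *
    d 2 ^ (expo chevE8 (rt 2 3) s + expo chevE8 (rt 3 4) s) * d 3 ^ expo chevE8 (rt 3 4) s * d 4 ^ (0 : ℤ)
  generalize expo chevE8 (rt 0 1) s = e0
  generalize expo chevE8 (rt 1 2) s = e1
  generalize expo chevE8 (rt 2 3) s = e2
  generalize expo chevE8 (rt 3 4) s = e3
  rw [zpow_zero, mul_one]
  exact ppow _ _ _ _ _ _ _ _

/-- the correction -/
def cc (i j : Fin 5) : ℤ := (if j = 4 then 1 else 0) - (if i = 4 then 1 else 0)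

theorem me11 : ∀ i j : Fin 5, i ≠ j → ∀ a : Fin 5, me rt1 (rt1 i j) a =
    (if a = i then 1 else 0) - (if a = j then 1 else 0) + cc i j := by decide +kernel
theorem me22 : ∀ i j : Fin 5, i ≠ j → ∀ a : Fin 5, me rt2 (rt2 i j) a =
    (if a = i then 1 else 0) - (if a = j then 1 else 0) + cc i j := by decide +kernel
theorem me12 : ∀ i j : Fin 5, i ≠ j → ∀ a : Fin 5, me rt1 (rt2 i j) a = 0 := by decide +kernel
theorem me21 : ∀ i j : Fin 5, i ≠ j → ∀ a : Fin 5, me rt2 (rt1 i j) a = 0 := by decide +kernel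

theorem prod_me {d : Fin 5 → kˣ} (h : ∏ i, d i = 1) {m : Fin 5 → ℤ} {i j : Fin 5}
    (hm : ∀ a : Fin 5, m a = (if a = i then 1 else 0) - (if a = j then 1 else 0) + cc i j) :
    ∏ a, d a ^ m a = d i / d j := by
  have h1 : ∀ a, d a ^ m a = (if a = i then d a else 1) * (if a = j then d a else 1)⁻¹ * d a ^ cc i j := by
    intro a
    rw [hm, _root_.zpow_add, _root_.zpow_sub]
    congr 1
    congr 1
    · split_ifs <;> simp
    · split_ifs <;> simp
  simp only [h1]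
  rw [Finset.prod_mul_distrib, Finset.prod_mul_distrib, Finset.prod_inv_distrib, Finset.prod_zpow, h, _root_.one_zpow, mul_one]
  simp [div_eq_mul_inv]

theorem wv11 {d : Fin 5 → kˣ} (h : ∏ i, d i = 1) {i j : Fin 5} (hij : i ≠ j) : wv rt1 d (rt1 i j) = d i / d j := by
  rw [wv_eq]; exact prod_me h (me11 i j hij)

theorem wv22 {d : Fin 5 → kˣ} (h : ∏ i, d i = 1) {i j : Fin 5} (hij : i ≠ j) : wv rt2 d (rt2 i j) = d i / d j := by
  rw [wv_eq]; exact prod_me h (me22 i j hij)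

theorem wv12 (d : Fin 5 → kˣ) {i j : Fin 5} (hij : i ≠ j) : wv rt1 d (rt2 i j) = 1 := by
  rw [wv_eq]
  exact Finset.prod_eq_one fun a _ => by rw [me12 i j hij, zpow_zero]

theorem wv21 (d : Fin 5 → kˣ) {i j : Fin 5} (hij : i ≠ j) : wv rt2 d (rt1 i j) = 1 := by
  rw [wv_eq]
  exact Finset.prod_eq_one fun a _ => by rw [me21 i j hij, zpow_zero]

/-- a torus element that is trivial on both `A₄` and of square one is trivial -/
theorem tt_eq_one {s : ↥(chevE8.group k)} (hs : s ∈ TT chevE8 k)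
    (h1 : ∀ i j, i ≠ j → cX e8T s (vec chevE8 8 (rt1 i j)) = 1)
    (h2 : ∀ i j, i ≠ j → cX e8T s (vec chevE8 8 (rt2 i j)) = 1)
    (h3 : cX e8T s (vec chevE8 8 126) ^ 2 = 1) : s = 1 := by
  have hM := isMC_cX e8T hs
  have hv : ∀ i : Fin 8, sr i = vec chevE8 8 (![162, 141, 135, 130, 126, 123, 121, 120] i) := by
    intro i
    rw [← vec_simple e8T i]
    fin_cases i <;> rfl
  have hθ : (5 : ℤ) • vec chevE8 8 126 = -(vec chevE8 8 (rt2 0 1) + (2 : ℤ) • vec chevE8 8 (rt1 0 1) +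
      (3 : ℤ) • vec chevE8 8 (rt1 3 4) + (4 : ℤ) • vec chevE8 8 (rt1 1 2) + (6 : ℤ) • vec chevE8 8 (rt1 2 3) +
      (4 : ℤ) • vec chevE8 8 (rt2 3 4) + (3 : ℤ) • vec chevE8 8 (rt2 2 3) + (2 : ℤ) • vec chevE8 8 (rt2 1 2)) := by
    decide +kernel
  have hz : ∀ (m : ℤ) (x : Fin 8 → ℤ), cX e8T s (m • x) = cX e8T s x ^ m := fun m x => hM.zsmul m x
  have h5 : cX e8T s (vec chevE8 8 126) ^ (5 : ℤ) = 1 := by
    rw [← hz, hθ, hM.neg, hM.add, hM.add, hM.add, hM.add, hM.add, hM.add, hM.add, hz, hz, hz, hz, hz, hz, hz,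
      h2 0 1 (by decide), h1 0 1 (by decide), h1 3 4 (by decide), h1 1 2 (by decide), h1 2 3 (by decide),
      h2 3 4 (by decide), h2 2 3 (by decide), h2 1 2 (by decide)]
    simp
  have h6 : cX e8T s (vec chevE8 8 126) = 1 := by
    have h7 : cX e8T s (vec chevE8 8 126) ^ 5 = 1 := by exact_mod_cast h5
    calc cX e8T s (vec chevE8 8 126) = cX e8T s (vec chevE8 8 126) ^ 5 * ((cX e8T s (vec chevE8 8 126) ^ 2)⁻¹) ^ 2 := by
          rw [h3, h7]
          have h8 : cX e8T s (vec chevE8 8 126) ^ 5 = (cX e8T s (vec chevE8 8 126) ^ 2) ^ 2 * cX e8T s (vec chevE8 8 126) := by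
            ring
          rw [h7, h3, one_pow, one_mul] at h8
          rw [← h8]; simp
      _ = 1 := by rw [h7, h3]; simp
  refine cX_inj e8T hs (one_mem _) fun i => ?_
  rw [cX_one, hv]
  fin_cases i
  · exact h1 0 1 (by decide)
  · exact h1 3 4 (by decide)
  · exact h1 1 2 (by decide)
  · exact h1 2 3 (by decide)
  · exact h6
  · exact h2 3 4 (by decide)
  · exact h2 2 3 (by decide)
  · exact h2 1 2 (by decide)

end W

section Fix


/-- Frobenius -/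
noncomputable abbrev sg : MulAut ↥(chevE8.group KK) := phi chevE8 KK 3 1

theorem sg_TT {s : ↥(chevE8.group KK)} (hs : s ∈ TT chevE8 KK) : sg s ∈ TT chevE8 KK :=
  ((phi_fr e8T cs8 3 lf 1).tor s).2 hs

theorem cX_sg {s : ↥(chevE8.group KK)} (hs : s ∈ TT chevE8 KK) (x : Fin 8 → ℤ) :
    cX e8T (sg s) x = cX e8T s x ^ 3 := by
  have h1 := cX_sigma e8T cs8 (phi_isFrob 3 1) (phi_fr e8T cs8 3 lf 1) hs x
  rwa [pow_one] at h1

theorem d3_succ {η : KKˣ} (h : η ^ 121 = 1) (i : Fin 5) : d3 η (i + 1) = d3 η i ^ 3 := by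
  have key : ∀ a b : ℕ, (b = 3 * a ∨ b + 242 = 3 * a) → η ^ b = (η ^ a) ^ 3 := by
    intro a b hab
    rw [← pow_mul]
    rcases hab with h1 | h1
    · rw [h1, mul_comm]
    · rw [mul_comm a 3, ← h1, pow_add, show (242 : ℕ) = 121 * 2 by norm_num, pow_mul η 121 2, h, one_pow, mul_one]
  have hp : ∀ i : Fin 5, (3 ^ ((i + 1 : Fin 5) : ℕ) = 3 * 3 ^ (i : ℕ) ∨ 3 ^ ((i + 1 : Fin 5) : ℕ) + 242 = 3 * 3 ^ (i : ℕ)) := by
    decide
  exact key _ _ (hp i)

theorem d3_eq {u : Fin 5 → KKˣ} (h : ∀ j, u (j + 1) = u j ^ 3) : u = d3 (u 0) := by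
  have f1 : u 1 = u 0 ^ 3 := h 0
  have f2 : u 2 = u 0 ^ 9 := by
    have : u 2 = u 1 ^ 3 := h 1
    rw [this, f1, ← pow_mul]
  have f3 : u 3 = u 0 ^ 27 := by
    have : u 3 = u 2 ^ 3 := h 2
    rw [this, f2, ← pow_mul]
  have f4 : u 4 = u 0 ^ 81 := by
    have : u 4 = u 3 ^ 3 := h 3
    rw [this, f3, ← pow_mul]
  funext i
  fin_cases i
  · exact (pow_one _).symm
  · exact f1
  · exact f2
  · exact f3
  · exact f4

/-- **The torus elements fixed by the twisted Frobenius map.** -/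
theorem fix_tor {ζ : KKˣ} (hζ : orderOf ζ = 121) (hp : ∏ i, d3 ζ i = 1)
    {M : SpecialLinearGroup (Fin 5) KK} (hM : ∀ i j, i ≠ j + 1 → M i j = 0)
    {s : ↥(chevE8.group KK)} (hs : s ∈ TT chevE8 KK) (hfix : ph2 KK M * sg s * (ph2 KK M)⁻¹ = s) :
    ∃ (e : Fin 5 → KKˣ) (he : ∏ i, e i = 1) (n : ℕ), (∀ i, e i = 1 ∨ e i = -1) ∧
      s = ph1 KK (dg e he) * ph2 KK (dg (d3 ζ) hp ^ n) := by
  obtain ⟨dl, h1, h2⟩ := Cfsg.Agent.H988.E8.tor_ph2 hs
  -- the multiplier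
  obtain ⟨u, hud⟩ : ∃ u : Fin 5 → KKˣ, ∀ j, u j = dl (j + 1) / dl j := ⟨fun j => dl (j + 1) / dl j, fun _ => rfl⟩
  have hu : ∏ i, u i = 1 := by
    rw [Fin.prod_univ_five, hud, hud, hud, hud, hud]
    exact cyc5 _ _ _ _ _
  have h3 : s * ph2 KK M * s⁻¹ = ph2 KK (M * dg u hu) := by
    refine h2 M _ fun i j => ?_
    show (M.1 * (Matrix.diagonal fun i => ((u i : KKˣ) : KK))) i j = _
    rw [Matrix.mul_diagonal]
    by_cases hij : i = j + 1
    · subst hij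
      rw [hud, Units.val_div_eq_div_val, div_eq_mul_inv]
      show M (j + 1) j * _ = _
      ring
    · show M i j * _ = _
      rw [hM i j hij, zero_mul, mul_zero, zero_mul]
  have h4 : sg s = ph2 KK (dg u hu) * s := by
    rw [map_mul] at h3
    have e1 : ph2 KK M * sg s = s * ph2 KK M := by
      have : ph2 KK M * sg s = ph2 KK M * sg s * (ph2 KK M)⁻¹ * ph2 KK M := by group
      rw [this, hfix]
    have e2 : s * ph2 KK M = ph2 KK M * (ph2 KK (dg u hu) * s) := by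
      have : s * ph2 KK M = s * ph2 KK M * s⁻¹ * s := by group
      rw [this, h3]; group
    rw [e2] at e1
    exact mul_left_cancel e1
  obtain ⟨hdT, hdX⟩ := ph2_dg u hu
  have h5 : ∀ r : Fin 240, cX e8T s (vec chevE8 8 r) ^ 2 = (wv rt2 u r : KK) := by
    intro r
    have e1 := cX_sg hs (vec chevE8 8 r)
    rw [h4, cX_mul e8T hdT hs, hdX] at e1
    have hne : cX e8T s (vec chevE8 8 r) ≠ 0 := (isMC_cX e8T hs).ne_zero _
    have e2 : cX e8T s (vec chevE8 8 r) * cX e8T s (vec chevE8 8 r) ^ 2 =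
        cX e8T s (vec chevE8 8 r) * (wv rt2 u r : KK) := by
      rw [← pow_succ', ← e1, mul_comm]
    exact mul_left_cancel₀ hne e2
  -- `u (j+1) = u j ^ 3`
  have h6 : ∀ i j : Fin 5, i ≠ j → (dl i / dl j) ^ 2 = u i / u j := by
    intro i j hij
    apply Units.ext
    rw [Units.val_pow_eq_pow_val, Units.val_div_eq_div_val, ← h1 i j hij]
    have := h5 ⟨rt2 i j, rt2_lt i j⟩
    rw [wv22 hu hij] at this
    exact this
  have h7 : ∀ j : Fin 5, u (j + 1) = u j ^ 3 := by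
    intro j
    have hne : j + 1 ≠ j := by revert j; decide
    have e1 := h6 (j + 1) j hne
    have e2 : u (j + 1) = (u j) ^ 2 * u j := by
      conv_rhs => rw [hud j]
      rw [← hud j]
      rw [hud j, e1, ← hud j]; simp
    rw [e2, ← pow_succ]
  have h8 : u = d3 (u 0) := d3_eq h7
  have h9 : u 0 ^ 121 = 1 := by
    have e1 : ∏ i, d3 (u 0) i = 1 := by rw [← h8]; exact hu
    rw [Fin.prod_univ_five] at e1
    unfold d3 at e1
    rw [← pow_add, ← pow_add, ← pow_add, ← pow_add] at e1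
    exact e1
  -- `u 0 = ζ ^ m`
  have hprim : IsPrimitiveRoot (ζ : KK) 121 := by
    rw [IsPrimitiveRoot.coe_units_iff, ← hζ]
    exact IsPrimitiveRoot.orderOf ζ
  obtain ⟨m, -, hm⟩ := hprim.eq_pow_of_pow_eq_one (ξ := ((u 0 : KKˣ) : KK)) (by
    rw [← Units.val_pow_eq_pow_val, h9, Units.val_one])
  have hm' : u 0 = ζ ^ m := by
    apply Units.ext
    rw [Units.val_pow_eq_pow_val]; exact hm.symm
  have hζ1 : ζ ^ 121 = 1 := by rw [← hζ]; exact pow_orderOf_eq_one ζ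
  -- the correction
  obtain ⟨n, hn⟩ : ∃ n : ℕ, n = m * 61 := ⟨_, rfl⟩
  have hzn : (ζ ^ n) ^ 2 = u 0 := by
    rw [← pow_mul, hm', hn]
    have : m * 61 * 2 = 121 * m + m := by ring
    rw [this, pow_add, pow_mul, hζ1, one_pow, one_mul]
  have hd3n : ∀ i, d3 ζ i ^ n = d3 (ζ ^ n) i := by
    intro i
    unfold d3
    rw [← pow_mul, ← pow_mul, mul_comm]
  have hpn : ∏ i, d3 (ζ ^ n) i = 1 := by
    simp only [← hd3n]
    rw [Finset.prod_pow, hp, one_pow]
  have hdgn : dg (d3 ζ) hp ^ n = dg (d3 (ζ ^ n)) hpn := by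
    rw [dg_pow]
    congr 1
    funext i
    exact hd3n i
  obtain ⟨a, ha⟩ : ∃ a, a = ph2 KK (dg (d3 ζ) hp ^ n) := ⟨_, rfl⟩
  have ha' : a = ph2 KK (dg (d3 (ζ ^ n)) hpn) := by rw [ha, hdgn]
  obtain ⟨haT, haX⟩ := ph2_dg (d3 (ζ ^ n)) hpn
  rw [← ha'] at haT haX
  have hsq : ∀ r : Fin 240, cX e8T a (vec chevE8 8 r) ^ 2 = cX e8T s (vec chevE8 8 r) ^ 2 := by
    intro r
    have e1 : ((ζ ^ n) ^ ex r) ^ 2 = u 0 ^ ex r := by
      rw [← zpow_natCast, ← _root_.zpow_mul, mul_comm, _root_.zpow_mul, zpow_natCast, hzn]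
    have e2 : wv rt2 u r = u 0 ^ ex r := by
      conv_lhs => rw [h8]
      exact wv_d3 _ _
    rw [haX, h5, wv_d3, e2, ← e1, Units.val_pow_eq_pow_val]
  -- `b = a⁻¹ s`
  obtain ⟨b, hb⟩ : ∃ b, b = a⁻¹ * s := ⟨_, rfl⟩
  have haT' : a⁻¹ ∈ TT chevE8 KK := inv_mem haT
  have hbT : b ∈ TT chevE8 KK := by rw [hb]; exact mul_mem haT' hs
  have hsab : s = a * b := by rw [hb]; group
  have hmulX : ∀ x, cX e8T s x = cX e8T a x * cX e8T b x := fun x => by
    conv_lhs => rw [hsab]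
    exact cX_mul e8T haT hbT x
  have hbsq : ∀ r : Fin 240, cX e8T b (vec chevE8 8 r) ^ 2 = 1 := by
    intro r
    have e1 := hsq r
    rw [hmulX, mul_pow] at e1
    have hne : cX e8T a (vec chevE8 8 r) ^ 2 ≠ 0 := pow_ne_zero 2 ((isMC_cX e8T haT).ne_zero _)
    have e2 : cX e8T a (vec chevE8 8 r) ^ 2 * 1 = cX e8T a (vec chevE8 8 r) ^ 2 * cX e8T b (vec chevE8 8 r) ^ 2 := by
      rw [mul_one]; exact e1
    exact (mul_left_cancel₀ hne e2).symm
  have hb2 : ∀ i j, i ≠ j → cX e8T b (vec chevE8 8 (rt2 i j)) = 1 := by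
    -- the ratios agree
    have key : ∀ i : Fin 5, cX e8T b (vec chevE8 8 (rt2 (i + 1) i)) = 1 := by
      intro i
      have hne : i + 1 ≠ i := by revert i; decide
      have e1 := hmulX (vec chevE8 8 (rt2 (i + 1) i))
      have e2 := haX ⟨rt2 (i + 1) i, rt2_lt _ _⟩
      rw [wv22 hpn hne] at e2
      rw [h1 _ _ hne] at e1
      have e3 : ((dl (i + 1) : KKˣ) : KK) / dl i = ((d3 (ζ ^ n) (i + 1) / d3 (ζ ^ n) i : KKˣ) : KK) := by
        rw [← Units.val_div_eq_div_val]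
        congr 1
        rw [← hud, h8]
        have hstep : d3 (ζ ^ n) (i + 1) = d3 (ζ ^ n) i ^ 3 :=
          d3_succ (by rw [← pow_mul, mul_comm, pow_mul, hζ1, one_pow]) i
        rw [hstep, pow_succ, mul_div_assoc, div_self', mul_one]
        unfold d3
        rw [← pow_mul, mul_comm, pow_mul, hzn]
      rw [e3] at e1
      have e4 : cX e8T a (vec chevE8 8 (rt2 (i + 1) i)) = ((d3 (ζ ^ n) (i + 1) / d3 (ζ ^ n) i : KKˣ) : KK) := e2
      rw [e4] at e1
      have hne2 : ((d3 (ζ ^ n) (i + 1) / d3 (ζ ^ n) i : KKˣ) : KK) ≠ 0 := Units.ne_zero _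
      have e5 : ((d3 (ζ ^ n) (i + 1) / d3 (ζ ^ n) i : KKˣ) : KK) * 1 =
          ((d3 (ζ ^ n) (i + 1) / d3 (ζ ^ n) i : KKˣ) : KK) * cX e8T b (vec chevE8 8 (rt2 (i + 1) i)) := by
        rw [mul_one]; exact e1
      exact (mul_left_cancel₀ hne2 e5).symm
    obtain ⟨dl', h1', -⟩ := Cfsg.Agent.H988.E8.tor_ph2 hbT
    have hst : ∀ i : Fin 5, dl' (i + 1) = dl' i := by
      intro i
      have hne : i + 1 ≠ i := by revert i; decide
      have e1 := key i
      rw [h1' _ _ hne, ← Units.val_div_eq_div_val] at e1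
      have e2 : dl' (i + 1) / dl' i = 1 := Units.ext e1
      exact div_eq_one.1 e2
    have hall : ∀ i : Fin 5, dl' i = dl' 0 := by
      have g1 : dl' 1 = dl' 0 := hst 0
      have g2 : dl' 2 = dl' 1 := hst 1
      have g3 : dl' 3 = dl' 2 := hst 2
      have g4 : dl' 4 = dl' 3 := hst 3
      intro i
      fin_cases i
      · rfl
      · exact g1
      · exact g2.trans g1
      · exact g3.trans (g2.trans g1)
      · exact g4.trans (g3.trans (g2.trans g1))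
    intro i j hij
    rw [h1' i j hij, hall i, hall j, div_self (Units.ne_zero _)]
  -- the signs on the first factor
  obtain ⟨f, g1, -⟩ := Cfsg.Agent.H988.E8.tor_ph1 hbT
  have hf2 : ∀ i j, (f i / f j) ^ 2 = 1 := by
    intro i j
    by_cases hij : i = j
    · rw [hij, div_self', one_pow]
    · have e1 := hbsq ⟨rt1 i j, rt1_lt i j⟩
      have e2 : cX e8T b (vec chevE8 8 (rt1 i j)) ^ 2 = 1 := e1
      rw [g1 i j hij, ← Units.val_div_eq_div_val, ← Units.val_pow_eq_pow_val] at e2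
      exact Units.ext e2
  obtain ⟨π, hπ⟩ : ∃ π : KKˣ, π = ∏ i, f i / f 4 := ⟨_, rfl⟩
  have hπ2 : π ^ 2 = 1 := by
    rw [hπ, ← Finset.prod_pow]
    exact Finset.prod_eq_one fun i _ => hf2 i 4
  obtain ⟨e, he⟩ : ∃ e : Fin 5 → KKˣ, ∀ i, e i = π * (f i / f 4) := ⟨fun i => π * (f i / f 4), fun _ => rfl⟩
  have he2 : ∀ i, e i ^ 2 = 1 := fun i => by rw [he, mul_pow, hπ2, hf2, one_mul]
  have hprod : ∏ i, e i = 1 := by
    simp only [he]
    rw [Finset.prod_mul_distrib, ← hπ, Finset.prod_const, Finset.card_univ, Fintype.card_fin, ← pow_succ,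
      show 5 + 1 = 2 * 3 from rfl, pow_mul, hπ2, one_pow]
  have hediv : ∀ i j, e i / e j = f i / f j := by
    intro i j
    rw [he, he, mul_div_mul_left_eq_div, div_div_div_cancel_right]
  have hpm : ∀ i, e i = 1 ∨ e i = -1 := by
    intro i
    have e1 : ((e i : KKˣ) : KK) * e i = 1 := by
      rw [← Units.val_mul, ← sq, he2, Units.val_one]
    rcases mul_self_eq_one_iff.1 e1 with e2 | e2
    · exact Or.inl (Units.ext (by rw [e2, Units.val_one]))
    · exact Or.inr (Units.ext (by rw [e2, Units.val_neg, Units.val_one]))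
  refine ⟨e, hprod, n, hpm, ?_⟩
  obtain ⟨hcT, hcX⟩ := ph1_dg e hprod
  obtain ⟨c, hc⟩ : ∃ c, c = ph1 KK (dg e hprod) := ⟨_, rfl⟩
  rw [← hc] at hcT hcX
  have hcT' : c⁻¹ ∈ TT chevE8 KK := inv_mem hcT
  have hdT2 : c⁻¹ * b ∈ TT chevE8 KK := mul_mem hcT' hbT
  have hbX : ∀ x, cX e8T b x = cX e8T c x * cX e8T (c⁻¹ * b) x := fun x => by
    have : b = c * (c⁻¹ * b) := by group
    conv_lhs => rw [this]
    exact cX_mul e8T hcT hdT2 x
  have hfin : c⁻¹ * b = 1 := by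
    refine tt_eq_one hdT2 (fun i j hij => ?_) (fun i j hij => ?_) ?_
    · have e1 := hbX (vec chevE8 8 (rt1 i j))
      have e2 : cX e8T c (vec chevE8 8 (rt1 i j)) = _ := hcX ⟨rt1 i j, rt1_lt i j⟩
      rw [wv11 hprod hij, hediv] at e2
      rw [g1 i j hij, e2, ← Units.val_div_eq_div_val] at e1
      have hne : ((f i / f j : KKˣ) : KK) ≠ 0 := Units.ne_zero _
      exact (mul_left_cancel₀ hne ((mul_one _).trans e1)).symm
    · have e1 := hbX (vec chevE8 8 (rt2 i j))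
      have e2 : cX e8T c (vec chevE8 8 (rt2 i j)) = _ := hcX ⟨rt2 i j, rt2_lt i j⟩
      rw [wv12 e hij, Units.val_one] at e2
      rw [hb2 i j hij, e2, one_mul] at e1
      exact e1.symm
    · have e1 := hbX (vec chevE8 8 126)
      have e2 : cX e8T c (vec chevE8 8 126) = _ := hcX 126
      have e3 : cX e8T c (vec chevE8 8 126) ^ 2 = 1 := by
        rw [e2, ← Units.val_pow_eq_pow_val, wv_eq, ← Finset.prod_pow]
        rw [Finset.prod_eq_one fun a _ => ?_, Units.val_one]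
        rw [← zpow_natCast, ← _root_.zpow_mul, mul_comm, _root_.zpow_mul, zpow_natCast, he2, _root_.one_zpow]
      have e4 : cX e8T b (vec chevE8 8 126) ^ 2 = 1 := hbsq 126
      rw [e1, mul_pow, e3, one_mul] at e4
      exact e4
  have hbc : b = c := by
    have : c * (c⁻¹ * b) = c := by rw [hfin, mul_one]
    rw [← this]; group
  rw [hsab, hbc, hc, ha]
  exact ((ph_comm KK (dg e hprod) (dg (d3 ζ) hp ^ n)).eq).symm

end Fix

end Cfsg.Agent.H238.E8
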